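import Cfsg.Agent.Lib.Helper41.Sol3.Defs

/-!
# S2258 farm, piece A1: Sylow 3-subgroups are TI and self-centralizing
-/

set_option autoImplicit false
set_option linter.unusedSectionVars false

namespace Cfsg.Agent.Lib.Helper41.Sol3

variable {G : Type*} [Group G] [Finite G] {q : ℕ}

theorem exists_sylow {a : G} (ha : a ^ 3 = 1) : ∃ P : Sylow 3 G, a ∈ P := by
  have hp : IsPGroup 3 (Subgroup.zpowers a) := by
    intro b
    refine ⟨1, ?_⟩
    obtain ⟨b, hb⟩ := b
    obtain ⟨n, rfl⟩ := Subgroup.mem_zpowers_iff.mp hb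
    apply Subtype.ext
    simp only [pow_one, Subgroup.coe_pow, Subgroup.coe_one]
    rw [← zpow_natCast, ← zpow_mul, mul_comm, zpow_mul, zpow_natCast, ha, one_zpow]
  obtain ⟨P, hP⟩ := hp.exists_le_sylow
  exact ⟨P, hP (Subgroup.mem_zpowers a)⟩

omit [Finite G] in
theorem A1_three_not_dvd (h : SPkg G q) : ¬ 3 ∣ q - 1 ∧ ¬ 3 ∣ q + 1 := by
  have h3 := h.q3
  have h27 := h.q27
  constructor <;> omega

theorem A1_cube_of_comm (h : SPkg G q) (P : Sylow 3 G) {a g : G} (ha : a ∈ P) (ha1 : a ≠ 1)
    (hg : g * a = a * g) : g ^ 3 = 1 := by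
  have ha3 : a ^ 3 = 1 := h.borExp P a ha
  have hoa : orderOf a = 3 := orderOf_eq_prime ha3 ha1
  obtain ⟨hn1, hn2⟩ := A1_three_not_dvd h
  rcases h.ord g with h1 | h1
  · exact orderOf_dvd_iff_pow_eq_one.mp h1
  · have hcop : Nat.Coprime (orderOf g) 3 := by
      rw [Nat.coprime_comm, Nat.Prime.coprime_iff_not_dvd Nat.prime_three]
      intro h3
      rcases h1 with h1 | h1
      · exact hn1 ((h3.trans (Dvd.intro_left 2 rfl)).trans h1)
      · exact hn2 ((h3.trans (Dvd.intro_left 2 rfl)).trans h1)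
    have hcomm : Commute g a := hg
    have hmul : orderOf (g * a) = orderOf g * 3 := by
      rw [hcomm.orderOf_mul_eq_mul_orderOf_of_coprime (by rw [hoa]; exact hcop), hoa]
    rcases h.ord (g * a) with h2 | h2 | h2
    · rw [hmul] at h2
      have hle : orderOf g * 3 ≤ 3 := Nat.le_of_dvd (by norm_num) h2
      have hpos : 0 < orderOf g := orderOf_pos g
      have : orderOf g = 1 := by omega
      rw [orderOf_eq_one_iff.mp this, one_pow]
    · rw [hmul] at h2
      exact absurd ((Dvd.intro_left (2 * orderOf g) (by ring)).trans h2) hn1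
    · rw [hmul] at h2
      exact absurd ((Dvd.intro_left (2 * orderOf g) (by ring)).trans h2) hn2

theorem cent_mem (h : SPkg G q) (P : Sylow 3 G) {a g : G} (ha : a ∈ P) (ha1 : a ≠ 1)
    (hg : g * a = a * g) : g ∈ P := by
  have hC : IsPGroup 3 (Subgroup.centralizer ({a} : Set G)) := by
    intro b
    refine ⟨1, ?_⟩
    obtain ⟨b, hb⟩ := b
    apply Subtype.ext
    simp only [pow_one, Subgroup.coe_pow, Subgroup.coe_one]
    have hb' : b * a = a * b := by
      have := Subgroup.mem_centralizer_iff.mp hb a (Set.mem_singleton a)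
      exact this.symm
    exact A1_cube_of_comm h P ha ha1 hb'
  have hle : (P : Subgroup G) ≤ Subgroup.centralizer ({a} : Set G) := by
    intro b hb
    rw [Subgroup.mem_centralizer_iff]
    intro c hc
    rw [Set.mem_singleton_iff.mp hc]
    exact h.borComm P a ha b hb
  have heq := P.is_maximal' hC hle
  have : g ∈ Subgroup.centralizer ({a} : Set G) := by
    rw [Subgroup.mem_centralizer_iff]
    intro c hc
    rw [Set.mem_singleton_iff.mp hc]
    exact hg.symm
  rw [heq] at this
  exact this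

theorem sylow_unique (h : SPkg G q) (P P' : Sylow 3 G) {a : G} (ha : a ∈ P) (ha' : a ∈ P')
    (ha1 : a ≠ 1) : P' = P := by
  have hle : (P' : Subgroup G) ≤ (P : Subgroup G) := by
    intro b hb
    exact cent_mem h P ha ha1 (h.borComm P' b hb a ha')
  exact (Sylow.ext (P'.is_maximal' P.isPGroup' hle)).symm

theorem conj_mem_norm (h : SPkg G q) (P : Sylow 3 G) {a g : G} (ha : a ∈ P) (ha1 : a ≠ 1)
    (hg : g * a * g⁻¹ ∈ P) : g ∈ Subgroup.normalizer ((P : Subgroup G) : Set G) := by
  rw [Sylow.coe_coe, ← Sylow.smul_eq_iff_mem_normalizer]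
  have hmem : g * a * g⁻¹ ∈ g • P := by
    have : g * a * g⁻¹ ∈ ((g • P : Sylow 3 G) : Subgroup G) := by
      rw [Sylow.coe_subgroup_smul, Subgroup.mem_pointwise_smul_iff_inv_smul_mem]
      have ha' : a ∈ (P : Subgroup G) := ha
      simpa [MulAut.smul_def, MulAut.conj_apply, mul_assoc] using ha'
    exact this
  have hne : g * a * g⁻¹ ≠ 1 := by
    intro h1
    apply ha1
    have : a = g⁻¹ * (g * a * g⁻¹) * g := by group
    rw [this, h1]; group
  exact sylow_unique h P (g • P) hg hmem hne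

end Cfsg.Agent.Lib.Helper41.Sol3
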