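import Cfsg.Agent.Lib.Helper41.Sol3.Defs
import Cfsg.Agent.Lib.Helper41.Sol3.A1

/-!
# S2258 farm, piece A2: Borel subgroups have odd order; small facts
-/

set_option autoImplicit false
set_option linter.unusedSectionVars false

namespace Cfsg.Agent.Lib.Helper41.Sol3

variable {G : Type*} [Group G] [Finite G] {q : ℕ}

theorem bor_odd (h : SPkg G q) (P : Sylow 3 G) {u : G}
    (hu : u ∈ Subgroup.normalizer ((P : Subgroup G) : Set G)) (hu2 : u * u = 1) : u = 1 := by
  have hN := h.borN P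
  have h8 := h.q8
  set c := Nat.card (Subgroup.normalizer ((P : Subgroup G) : Set G)) with hc
  have hodd : ¬ 2 ∣ c := by
    obtain ⟨m, hm⟩ : ∃ m, q = 8 * m + 3 := ⟨q / 8, by omega⟩
    subst hm
    have h1 : 8 * m + 3 - 1 = 2 * (4 * m + 1) := by omega
    rw [h1] at hN
    have h2 : c = (8 * m + 3) * (4 * m + 1) := by
      have : 2 * c = 2 * ((8 * m + 3) * (4 * m + 1)) := by rw [hN]; ring
      omega
    rw [h2]
    intro hd
    rcases (Nat.Prime.dvd_mul Nat.prime_two).mp hd with hd | hd <;> omega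
  have ho1 : orderOf u ∣ 2 := orderOf_dvd_of_pow_eq_one (by rw [pow_two]; exact hu2)
  have ho2 : orderOf u ∣ c := by
    have := orderOf_dvd_natCard (⟨u, hu⟩ : Subgroup.normalizer ((P : Subgroup G) : Set G))
    rwa [Subgroup.orderOf_mk] at this
  rcases (Nat.dvd_prime Nat.prime_two).mp ho1 with h1 | h1
  · exact orderOf_eq_one_iff.mp h1
  · rw [h1] at ho2
    exact absurd ho2 hodd

theorem bor_three (P : Sylow 3 G) {u : G}
    (hu : u ∈ Subgroup.normalizer ((P : Subgroup G) : Set G)) (hu3 : u ^ 3 = 1) : u ∈ P := by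
  have hp : IsPGroup 3 (Subgroup.zpowers u) := by
    intro b
    refine ⟨1, ?_⟩
    obtain ⟨b, hb⟩ := b
    obtain ⟨n, rfl⟩ := Subgroup.mem_zpowers_iff.mp hb
    apply Subtype.ext
    simp only [pow_one, Subgroup.coe_pow, Subgroup.coe_one]
    rw [← zpow_natCast, ← zpow_mul, mul_comm, zpow_mul, zpow_natCast, hu3, one_zpow]
  have := hp.inf_normalizer_sylow P
  have hmem : u ∈ Subgroup.zpowers u ⊓ Subgroup.normalizer ((P : Subgroup G) : Set G) :=
    ⟨Subgroup.mem_zpowers u, hu⟩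
  rw [Sylow.coe_coe, this] at hmem
  exact hmem.2

theorem not_comm_23 (h : SPkg G q) {z y : G} (hz : orderOf z = 2) (hy : orderOf y = 3) :
    z * y ≠ y * z := by
  intro hc
  have hy3 : y ^ 3 = 1 := by rw [← hy]; exact pow_orderOf_eq_one y
  have hy1 : y ≠ 1 := by
    intro h1; rw [h1, orderOf_one] at hy; omega
  obtain ⟨P, hP⟩ := exists_sylow hy3
  have hzP := cent_mem h P hP hy1 hc
  have hz3 := h.borExp P z hzP
  have : orderOf z ∣ 3 := orderOf_dvd_of_pow_eq_one hz3
  rw [hz] at this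
  omega

theorem not_inv_23 (h : SPkg G q) {z y : G} (hz : orderOf z = 2) (hy : orderOf y = 3) :
    z * y * z⁻¹ ≠ y⁻¹ := by
  intro hc
  have hy3 : y ^ 3 = 1 := by rw [← hy]; exact pow_orderOf_eq_one y
  have hy1 : y ≠ 1 := by
    intro h1; rw [h1, orderOf_one] at hy; omega
  obtain ⟨P, hP⟩ := exists_sylow hy3
  have hzN := conj_mem_norm h P (g := z) hP hy1 (by rw [hc]; exact inv_mem hP)
  have hz2 : z * z = 1 := by rw [← pow_two, ← hz]; exact pow_orderOf_eq_one z
  have := bor_odd h P hzN hz2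
  rw [this, orderOf_one] at hz
  omega

end Cfsg.Agent.Lib.Helper41.Sol3
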