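import Cfsg.Agent.Lib.Helper41.Sol3.Defs

set_option autoImplicit false

namespace Cfsg.Agent.Lib.Helper41.Sol3

variable {G : Type*} [Group G] [Finite G] {q : ℕ}

/-! ### [A3] proper subgroups, element orders -/

theorem bor_ne_top (h : SPkg G q) (P : Sylow 3 G) :
    Subgroup.normalizer ((P : Subgroup G) : Set G) ≠ ⊤ := by
  intro htop
  have h1 := h.borN P
  rw [htop, Subgroup.card_top] at h1
  have h2 := h.card
  rw [h1] at h2
  have h27 := h.q27
  have hpos : 0 < q * (q - 1) := by apply Nat.mul_pos <;> omega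
  nlinarith

theorem small_ne_top (h : SPkg G q) (N : Subgroup G) (hN : Nat.card N ≤ q + 1) : N ≠ ⊤ := by
  intro htop
  rw [htop, Subgroup.card_top] at hN
  have h2 := h.card
  have h27 := h.q27
  have h3 : 27 * 26 ≤ q * (q - 1) := Nat.mul_le_mul h27 (by omega)
  nlinarith

theorem order_dvd_twelve (h : SPkg G q) {g : G} (hg : orderOf g ∣ 12) :
    g = 1 ∨ orderOf g = 2 ∨ orderOf g = 3 := by
  have hq8 := h.q8
  have hq3 := h.q3
  have hq27 := h.q27
  have ho := h.ord g
  obtain ⟨n, hn⟩ : ∃ n, n = orderOf g := ⟨_, rfl⟩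
  rw [← hn] at hg ho ⊢
  have hle : n ≤ 12 := Nat.le_of_dvd (by norm_num) hg
  have hpos : 0 < n := hn ▸ orderOf_pos g
  by_cases h1 : n = 1
  · left; exact orderOf_eq_one_iff.1 (hn ▸ h1)
  right
  interval_cases n <;> omega

/-- membership in the solubilizer = lying with `x` in a common proper subgroup -/
theorem sol_iff (h : SPkg G q) (x y : G) :
    Group.IsSolvable ↥(Subgroup.closure ({x, y} : Set G)) ↔
      ∃ H : Subgroup G, H ≠ ⊤ ∧ x ∈ H ∧ y ∈ H := by
  rw [h.sol]
  constructor
  · intro hne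
    exact ⟨_, hne, Subgroup.subset_closure (by simp), Subgroup.subset_closure (by simp)⟩
  · rintro ⟨H, hH, hx, hy⟩ htop
    apply hH
    rw [eq_top_iff, ← htop, Subgroup.closure_le]
    rintro z (rfl | rfl)
    · exact hx
    · exact hy

end Cfsg.Agent.Lib.Helper41.Sol3
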