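import Cfsg.Agent.Lib.Helper41.Sol3.Defs

set_option autoImplicit false

namespace Cfsg.Agent.Lib.Helper41.Sol3

variable {G : Type*} [Group G] [Finite G] {q : ℕ}

open DihedralGroup

theorem DIH_cases0 (k : ℕ) (a b : DihedralGroup k) :
    a * b = b * a ∨ (b * b = 1 ∧ b * a * b⁻¹ = a⁻¹) ∨ (a * a = 1 ∧ a * b * a⁻¹ = b⁻¹) ∨
      (a * a = 1 ∧ b * b = 1) := by
  rcases a with i | i <;> rcases b with j | j
  · left
    simp [add_comm]
  · right; left
    simp
  · right; right; left
    simp
  · right; right; right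
    simp

theorem dih_cases {M : Type*} [Group M] (k : ℕ) (e : M ≃* DihedralGroup k) (a b : M) :
    a * b = b * a ∨ (b * b = 1 ∧ b * a * b⁻¹ = a⁻¹) ∨ (a * a = 1 ∧ a * b * a⁻¹ = b⁻¹) ∨
      (a * a = 1 ∧ b * b = 1) := by
  rcases DIH_cases0 k (e a) (e b) with h | ⟨h1, h2⟩ | ⟨h1, h2⟩ | ⟨h1, h2⟩
  · left
    apply e.injective
    rw [map_mul, map_mul, h]
  · right; left
    constructor <;> apply e.injective
    · rw [map_mul, map_one, h1]
    · rw [map_mul, map_mul, map_inv, map_inv, h2]
  · right; right; left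
    constructor <;> apply e.injective
    · rw [map_mul, map_one, h1]
    · rw [map_mul, map_mul, map_inv, map_inv, h2]
  · right; right; right
    constructor <;> apply e.injective
    · rw [map_mul, map_one, h1]
    · rw [map_mul, map_one, h2]

theorem DIH_two_tors (m : ℕ) (hm : 0 < m) (i : ZMod (2 * m)) :
    i + i = 0 ↔ i = 0 ∨ i = (m : ZMod (2 * m)) := by
  haveI : NeZero (2 * m) := ⟨by omega⟩
  constructor
  · intro h
    have h1 : ((i.val + i.val : ℕ) : ZMod (2 * m)) = 0 := by
      rw [Nat.cast_add, ZMod.natCast_zmod_val, h]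
    rw [ZMod.natCast_eq_zero_iff] at h1
    have h2 : i.val < 2 * m := ZMod.val_lt i
    obtain ⟨c, hc⟩ := h1
    have hc2 : c < 2 := by
      by_contra hcon
      have : 2 ≤ c := by omega
      have : 2 * m * 2 ≤ 2 * m * c := Nat.mul_le_mul_left _ this
      omega
    interval_cases c
    · left
      have : i.val = 0 := by omega
      exact (ZMod.val_eq_zero i).1 this
    · right
      have : i.val = m := by omega
      calc i = ((i.val : ℕ) : ZMod (2 * m)) := (ZMod.natCast_zmod_val i).symm
        _ = (m : ZMod (2 * m)) := by rw [this]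
  · rintro (rfl | rfl)
    · simp
    · rw [← Nat.cast_add, ZMod.natCast_eq_zero_iff]
      exact ⟨1, by ring⟩

theorem dih_sq_card (k : ℕ) (hk : Even k) (hk0 : 0 < k) :
    {u : DihedralGroup k | u * u = 1}.ncard = k + 2 := by
  obtain ⟨m, rfl⟩ := hk
  have hm : 0 < m := by omega
  have h2m : m + m = 2 * m := by ring
  rw [h2m]
  haveI : NeZero (2 * m) := ⟨by omega⟩
  have hset : {u : DihedralGroup (2 * m) | u * u = 1} =
      (r '' ({0, (m : ZMod (2 * m))} : Set (ZMod (2 * m)))) ∪ Set.range sr := by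
    ext u
    rcases u with i | i
    · simp only [Set.mem_setOf_eq, r_mul_r, one_def, r.injEq, Set.mem_union, Set.mem_image,
        Set.mem_insert_iff, Set.mem_singleton_iff, Set.mem_range, reduceCtorEq, exists_false,
        or_false]
      rw [DIH_two_tors m hm]
      constructor
      · rintro (h | h)
        · exact ⟨0, Or.inl rfl, h.symm⟩
        · exact ⟨m, Or.inr rfl, h.symm⟩
      · rintro ⟨x, (rfl | rfl), rfl⟩
        · exact Or.inl rfl
        · exact Or.inr rfl
    · simp
  have hdisj : Disjoint (r '' ({0, (m : ZMod (2 * m))} : Set (ZMod (2 * m))))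
      (Set.range (sr : ZMod (2 * m) → DihedralGroup (2 * m))) := by
    rw [Set.disjoint_left]
    rintro _ ⟨x, _, rfl⟩ ⟨y, hy⟩
    cases hy
  have hrinj : Function.Injective (r : ZMod (2 * m) → DihedralGroup (2 * m)) := by
    intro a b h; cases h; rfl
  have hsinj : Function.Injective (sr : ZMod (2 * m) → DihedralGroup (2 * m)) := by
    intro a b h; cases h; rfl
  have hne : (0 : ZMod (2 * m)) ≠ (m : ZMod (2 * m)) := by
    intro h
    have h1 := (ZMod.natCast_eq_zero_iff m (2 * m)).1 h.symm
    have := Nat.le_of_dvd hm h1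
    omega
  rw [hset, Set.ncard_union_eq hdisj (Set.toFinite _) (Set.toFinite _),
    Set.ncard_image_of_injective _ hrinj, Set.ncard_pair hne, ← Set.image_univ,
    Set.ncard_image_of_injective _ hsinj, Set.ncard_univ, Nat.card_zmod]
  ring

/-- the rotations -/
def DIH_rotHom (k : ℕ) : Multiplicative (ZMod k) →* DihedralGroup k where
  toFun i := r (Multiplicative.toAdd i)
  map_one' := rfl
  map_mul' a b := by simp

theorem DIH_rot_of_order (k : ℕ) (hk3 : 3 ≤ k) (t : DihedralGroup k) (ht : orderOf t = k) :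
    ∃ j, t = r j := by
  rcases t with j | j
  · exact ⟨j, rfl⟩
  · rw [orderOf_sr] at ht
    omega

theorem DIH_zpowers_eq (k : ℕ) (hk3 : 3 ≤ k) (t : DihedralGroup k) (ht : orderOf t = k) :
    Subgroup.zpowers t = (DIH_rotHom k).range := by
  haveI : NeZero k := ⟨by omega⟩
  obtain ⟨j, rfl⟩ := DIH_rot_of_order k hk3 t ht
  apply Subgroup.eq_of_le_of_card_ge
  · rw [Subgroup.zpowers_le]
    exact ⟨Multiplicative.ofAdd j, rfl⟩
  · rw [Nat.card_zpowers, ht]
    have hinj : Function.Injective (DIH_rotHom k) := by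
      intro a b h
      have h1 : r (Multiplicative.toAdd a) = r (Multiplicative.toAdd b) := h
      cases h1
      rfl
    have h1 : Nat.card (DIH_rotHom k).range = Nat.card (Multiplicative (ZMod k)) :=
      (Nat.card_congr (MonoidHom.ofInjective hinj).toEquiv).symm
    rw [h1, Nat.card_congr Multiplicative.toAdd, Nat.card_zmod]

theorem dih_central (k : ℕ) (hk3 : 3 ≤ k) (t c g : DihedralGroup k) (ht : orderOf t = k)
    (hc : c ∈ Subgroup.zpowers t) (hc2 : orderOf c = 2) : g * c = c * g := by
  rw [DIH_zpowers_eq k hk3 t ht] at hc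
  obtain ⟨i, rfl⟩ := hc
  have h1 : DIH_rotHom k i = r (Multiplicative.toAdd i) := rfl
  rw [h1] at hc2 ⊢
  generalize Multiplicative.toAdd i = i at *
  have h2 : r i ^ 2 = 1 := by rw [← hc2]; exact pow_orderOf_eq_one _
  rw [pow_two, r_mul_r, one_def, r.injEq] at h2
  rcases g with l | l
  · simp [add_comm]
  · simp only [sr_mul_r, r_mul_sr, sr.injEq]
    have : i = -i := eq_neg_of_add_eq_zero_left h2
    rw [sub_eq_add_neg, ← this]

theorem dih_mem_or (k : ℕ) (hk3 : 3 ≤ k) (t g : DihedralGroup k) (ht : orderOf t = k) :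
    g ∈ Subgroup.zpowers t ∨ g * g = 1 := by
  rw [DIH_zpowers_eq k hk3 t ht]
  rcases g with l | l
  · left
    exact ⟨Multiplicative.ofAdd l, rfl⟩
  · right
    simp

end Cfsg.Agent.Lib.Helper41.Sol3
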