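import Cfsg.Agent.Lib.Helper41.Sol3.Defs
import Cfsg.Agent.Lib.Helper41.Sol3.DIH

set_option autoImplicit false

namespace Cfsg.Agent.Lib.Helper41.Sol3

variable {G : Type*} [Group G] [Finite G] {q : ℕ}

theorem cent_inv (h : SPkg G q) {x : G} (hx : orderOf x = 2) :
    ∃ N : Subgroup G, Nat.card N = q + 1 ∧ (∀ g, g ∈ N ↔ g * x = x * g) ∧
      {u : G | u ∈ N ∧ u * u = 1}.ncard = (q + 1) / 2 + 2 := by
  have hq8 := h.q8
  have hq27 := h.q27
  have hx2 : x ^ 2 = 1 := by rw [← hx]; exact pow_orderOf_eq_one x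
  have hx1 : x ≠ 1 := by
    intro h1
    rw [h1, orderOf_one] at hx
    omega
  have hx3 : x ^ 3 ≠ 1 := by
    rw [pow_succ, hx2, one_mul]; exact hx1
  obtain ⟨N, k, t, hk, ⟨e⟩, htN, htk, hxt, hN⟩ := h.tor x hx3
  have h2k : 2 ∣ k := by
    rw [← hx, ← htk]; exact orderOf_dvd_of_mem_zpowers hxt
  have hk' : 2 * k = q + 1 := by
    rcases hk with hk | hk
    · obtain ⟨j, rfl⟩ := h2k
      omega
    · exact hk
  have hk3 : 3 ≤ k := by omega
  have hxN : x ∈ N := (Subgroup.zpowers_le.2 htN) hxt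
  have hot : orderOf (e ⟨t, htN⟩) = k := by
    rw [MulEquiv.orderOf_eq, Subgroup.orderOf_mk, htk]
  have hox : orderOf (e ⟨x, hxN⟩) = 2 := by
    rw [MulEquiv.orderOf_eq, Subgroup.orderOf_mk, hx]
  have hmem : e ⟨x, hxN⟩ ∈ Subgroup.zpowers (e ⟨t, htN⟩) := by
    obtain ⟨n, hn⟩ := Subgroup.mem_zpowers_iff.1 hxt
    rw [Subgroup.mem_zpowers_iff]
    refine ⟨n, ?_⟩
    rw [← map_zpow]
    congr 1
    apply Subtype.ext
    simpa using hn
  refine ⟨N, ?_, ?_, ?_⟩
  · rw [Nat.card_congr e.toEquiv, DihedralGroup.nat_card, hk']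
  · intro g
    constructor
    · intro hg
      have h1 := dih_central k hk3 (e ⟨t, htN⟩) (e ⟨x, hxN⟩) (e ⟨g, hg⟩) hot hmem hox
      rw [← map_mul, ← map_mul] at h1
      exact congrArg Subtype.val (e.injective h1)
    · intro hg
      apply hN g x hxt hx1
      rw [hg, mul_assoc, mul_inv_cancel, mul_one]
      exact hxt
  · have hset : {u : G | u ∈ N ∧ u * u = 1} =
        (fun v : DihedralGroup k => ((e.symm v : N) : G)) '' {v | v * v = 1} := by
      ext u
      constructor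
      · rintro ⟨huN, hu⟩
        refine ⟨e ⟨u, huN⟩, ?_, by simp⟩
        change e ⟨u, huN⟩ * e ⟨u, huN⟩ = 1
        rw [← map_mul]
        have : (⟨u, huN⟩ : N) * ⟨u, huN⟩ = 1 := Subtype.ext hu
        rw [this, map_one]
      · rintro ⟨v, hv, rfl⟩
        refine ⟨(e.symm v).2, ?_⟩
        have hv' : v * v = 1 := hv
        have : e.symm v * e.symm v = 1 := by rw [← map_mul, hv', map_one]
        exact congrArg Subtype.val this
    have hinj : Function.Injective (fun v : DihedralGroup k => ((e.symm v : N) : G)) :=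
      Subtype.val_injective.comp e.symm.injective
    rw [hset, Set.ncard_image_of_injective _ hinj, dih_sq_card k (even_iff_two_dvd.2 h2k) (by omega)]
    omega

end Cfsg.Agent.Lib.Helper41.Sol3
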