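import Mathlib

/-!
# S2258 (solubilizers in `PSL₂(3^p)`): the abstract package

`SPkg G q` collects the facts about `G = PSL₂(q)`, `q = 3^p`, `p` an odd prime, from which the four
counts of S2258 follow by pure group theory.
-/

set_option autoImplicit false

namespace Cfsg.Agent.Lib.Helper41.Sol3

/-- The abstract package: `G` behaves like `PSL₂(q)`, `q = 3^p`, `p` an odd prime. -/
structure SPkg (G : Type*) [Group G] (q : ℕ) : Prop where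
  q8 : q % 8 = 3
  q3 : 3 ∣ q
  q27 : 27 ≤ q
  card : 2 * Nat.card G = q * (q - 1) * (q + 1)
  ord : ∀ g : G, orderOf g ∣ 3 ∨ 2 * orderOf g ∣ q - 1 ∨ 2 * orderOf g ∣ q + 1
  borCard : ∀ P : Sylow 3 G, Nat.card P = q
  borN : ∀ P : Sylow 3 G,
    2 * Nat.card (Subgroup.normalizer ((P : Subgroup G) : Set G)) = q * (q - 1)
  borComm : ∀ P : Sylow 3 G, ∀ a ∈ P, ∀ b ∈ P, a * b = b * a
  borExp : ∀ P : Sylow 3 G, ∀ a ∈ P, a ^ 3 = 1
  tor : ∀ c : G, c ^ 3 ≠ 1 → ∃ (N : Subgroup G) (k : ℕ) (t : G),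
    (2 * k = q - 1 ∨ 2 * k = q + 1) ∧ Nonempty (N ≃* DihedralGroup k) ∧ t ∈ N ∧ orderOf t = k ∧
    c ∈ Subgroup.zpowers t ∧
    (∀ g : G, ∀ a ∈ Subgroup.zpowers t, a ≠ 1 → g * a * g⁻¹ ∈ Subgroup.zpowers t → g ∈ N)
  sub : ∀ M : Subgroup G, M ≠ ⊤ → IsCyclic M ∨ (∃ k : ℕ, Nonempty (M ≃* DihedralGroup k)) ∨
    (∃ P : Sylow 3 G, M ≤ Subgroup.normalizer ((P : Subgroup G) : Set G)) ∨ Nat.card M = 12
  sol : ∀ M : Subgroup G, Group.IsSolvable M ↔ M ≠ ⊤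
  invc : ∀ a b : G, orderOf a = 2 → orderOf b = 2 → IsConj a b
  zc : ∀ y : G, orderOf y = 3 → {z : G | orderOf z = 2 ∧ (z * y) ^ 3 = 1}.ncard = q

end Cfsg.Agent.Lib.Helper41.Sol3
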