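import Cfsg.Agent.Lib.Helper41.Sol3.Defs
import Cfsg.Agent.Lib.Helper41.Sol3.A1

/-!
# S2258 farm, piece N3: the number of Sylow 3-subgroups and of elements of order 3
-/

set_option autoImplicit false
set_option linter.unusedSectionVars false

namespace Cfsg.Agent.Lib.Helper41.Sol3

variable {G : Type*} [Group G] [Finite G] {q : ℕ}

theorem card_sylow3 (h : SPkg G q) : Nat.card (Sylow 3 G) = q + 1 := by
  have : Fact (Nat.Prime 3) := ⟨Nat.prime_three⟩
  obtain ⟨P⟩ : Nonempty (Sylow 3 G) := inferInstance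
  rw [Sylow.card_eq_index_normalizer P]
  have h1 := Subgroup.card_mul_index (Subgroup.normalizer ((P : Subgroup G) : Set G))
  have h2 := h.borN P
  have h3 := h.card
  have h27 := h.q27
  rw [Sylow.coe_coe] at h1 h2
  set c := Nat.card (Subgroup.normalizer (P : Set G)) with hc
  set i := (Subgroup.normalizer (P : Set G)).index with hi
  have h4 : (q * (q - 1)) * i = (q * (q - 1)) * (q + 1) := by
    rw [← h3, ← h2, ← h1]; ring
  have hpos : 0 < q * (q - 1) := Nat.mul_pos (by omega) (by omega)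
  exact Nat.eq_of_mul_eq_mul_left hpos h4

theorem N3_fibre (h : SPkg G q) (P : Sylow 3 G) :
    Nat.card {a : G // a ∈ P ∧ a ≠ 1} = q - 1 := by
  have h1 : {a : G | a ∈ P ∧ a ≠ 1} = ((P : Subgroup G) : Set G) \ {1} := by
    ext a
    simp
  have h2 : Nat.card {a : G // a ∈ P ∧ a ≠ 1} = {a : G | a ∈ P ∧ a ≠ 1}.ncard := by
    rw [← Nat.card_coe_set_eq]
    rfl
  rw [h2, h1, Set.ncard_sdiff_singleton_of_mem (one_mem (P : Subgroup G))]
  have h3 : (((P : Subgroup G) : Set G)).ncard = q := by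
    rw [← Nat.card_coe_set_eq]
    exact h.borCard P
  rw [h3]

theorem card_three (h : SPkg G q) : {y : G | orderOf y = 3}.ncard = (q + 1) * (q - 1) := by
  classical
  have : Fintype (Sylow 3 G) := Fintype.ofFinite _
  have hord : ∀ (P : Sylow 3 G) (a : G), a ∈ P → a ≠ 1 → orderOf a = 3 := fun P a ha ha1 =>
    orderOf_eq_prime (h.borExp P a ha) ha1
  let f : (Σ P : Sylow 3 G, {a : G // a ∈ P ∧ a ≠ 1}) → {y : G // orderOf y = 3} :=
    fun x => ⟨x.2.1, hord x.1 x.2.1 x.2.2.1 x.2.2.2⟩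
  have hinj : Function.Injective f := by
    rintro ⟨P, a, ha, ha1⟩ ⟨P', a', ha', ha1'⟩ heq
    have h1 : a = a' := congrArg Subtype.val heq
    subst h1
    have h2 := sylow_unique h P P' ha ha' ha1
    subst h2
    rfl
  have hsurj : Function.Surjective f := by
    rintro ⟨y, hy⟩
    have hy3 : y ^ 3 = 1 := by rw [← hy]; exact pow_orderOf_eq_one y
    have hy1 : y ≠ 1 := by
      intro h1; rw [h1, orderOf_one] at hy; omega
    obtain ⟨P, hP⟩ := exists_sylow hy3
    exact ⟨⟨P, y, hP, hy1⟩, rfl⟩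
  have h1 : {y : G | orderOf y = 3}.ncard = Nat.card {y : G // orderOf y = 3} := by
    rw [← Nat.card_coe_set_eq]
    rfl
  rw [h1, ← Nat.card_congr (Equiv.ofBijective f ⟨hinj, hsurj⟩), Nat.card_sigma]
  simp only [N3_fibre h]
  rw [Finset.sum_const, Finset.card_univ, ← Nat.card_eq_fintype_card, card_sylow3 h, smul_eq_mul]

end Cfsg.Agent.Lib.Helper41.Sol3
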