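import Cfsg.Agent.Lib.Helper41.Sol3.Defs
import Cfsg.Agent.Lib.Helper41.Sol3.A1
import Cfsg.Agent.Lib.Helper41.Sol3.A2
import Cfsg.Agent.Lib.Helper41.Sol3.N3

set_option autoImplicit false

namespace Cfsg.Agent.Lib.Helper41.Sol3

variable {G : Type*} [Group G] [Finite G] {q : ℕ}

/-- an element of `P₁` normalizing another Sylow 3-subgroup is trivial -/
theorem eq_one_of_mem_of_norm_F1a (h : SPkg G q) (P₁ P₂ : Sylow 3 G) (h12 : P₂ ≠ P₁) {a : G}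
    (ha : a ∈ P₁) (ha2 : a • P₂ = P₂) : a = 1 := by
  by_contra ha1
  have h2 : a ∈ P₂ := bor_three P₂ (Sylow.smul_eq_iff_mem_normalizer.1 ha2) (h.borExp P₁ a ha)
  exact h12 (sylow_unique h P₁ P₂ ha h2 ha1)

theorem sylow_trans (h : SPkg G q) (P₁ P₂ P₃ : Sylow 3 G) (h12 : P₂ ≠ P₁) (h13 : P₃ ≠ P₁) :
    ∃ a ∈ P₁, a • P₂ = P₃ := by
  have hfix : ∀ a ∈ P₁, a • P₁ = P₁ := fun a ha =>
    Sylow.smul_eq_iff_mem_normalizer.2 (Subgroup.le_normalizer ha)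
  let φ : P₁ → {P : Sylow 3 G // P ≠ P₁} := fun a => ⟨a.1 • P₂, fun hc => h12 (by
    have h1 : a.1⁻¹ • (a.1 • P₂) = a.1⁻¹ • P₁ := by rw [hc]
    rw [inv_smul_smul, hfix _ (inv_mem a.2)] at h1
    exact h1)⟩
  have hinj : Function.Injective φ := by
    intro a b hab
    have h1 : a.1 • P₂ = b.1 • P₂ := congrArg Subtype.val hab
    have h2 : (b.1⁻¹ * a.1) • P₂ = P₂ := by rw [mul_smul, h1, inv_smul_smul]
    have h3 := eq_one_of_mem_of_norm_F1a h P₁ P₂ h12 (mul_mem (inv_mem b.2) a.2) h2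
    apply Subtype.ext
    exact (inv_mul_eq_one.1 h3).symm
  have hc : Nat.card {P : Sylow 3 G // P ≠ P₁} = q := by
    have h1 := Set.ncard_add_ncard_compl ({P₁} : Set (Sylow 3 G))
    rw [Set.ncard_singleton, card_sylow3 h] at h1
    have h2 : Nat.card {P : Sylow 3 G // P ≠ P₁} = ({P₁} : Set (Sylow 3 G))ᶜ.ncard := rfl
    omega
  have hbij := Function.Injective.bijective_of_nat_card_le hinj (by rw [hc]; exact (h.borCard P₁).ge)
  obtain ⟨a, ha⟩ := hbij.2 ⟨P₃, h13⟩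
  exact ⟨a.1, a.2, congrArg Subtype.val ha⟩

end Cfsg.Agent.Lib.Helper41.Sol3
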