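import Cfsg.Agent.Lib.Helper41.Sol3.Defs
import Cfsg.Agent.Lib.Helper41.Sol3.A1
import Cfsg.Agent.Lib.Helper41.Sol3.A2
import Cfsg.Agent.Lib.Helper41.Sol3.N3
import Cfsg.Agent.Lib.Helper41.Sol3.F1a

set_option autoImplicit false

namespace Cfsg.Agent.Lib.Helper41.Sol3

variable {G : Type*} [Group G] [Finite G] {q : ℕ}

/-- an element of prime order `r ≥ 5`, `r ∣ q - 1`, fixes at least two Sylow 3-subgroups -/
theorem exists_two_fixed_F1 (h : SPkg G q) {x' : G} {r : ℕ} (hr : r.Prime) (hx' : orderOf x' = r)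
    (hr5 : 5 ≤ r) (hrq : r ∣ q - 1) :
    ∃ P₁ P₂ : Sylow 3 G, P₁ ≠ P₂ ∧ x' • P₁ = P₁ ∧ x' • P₂ = P₂ := by
  have : Fact r.Prime := ⟨hr⟩
  have hp : IsPGroup r (Subgroup.zpowers x') := by
    apply IsPGroup.of_card (n := 1)
    rw [Nat.card_zpowers, hx', pow_one]
  have h1 := hp.card_modEq_card_fixedPoints (Sylow 3 G)
  rw [card_sylow3 h] at h1
  have hq := h.q27
  have h2 : 1 < Nat.card (MulAction.fixedPoints (Subgroup.zpowers x') (Sylow 3 G)) := by
    obtain ⟨c, hc⟩ := hrq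
    have e : q + 1 = 2 + r * c := by omega
    rw [e] at h1
    have h3 : (2 + r * c) % r = 2 := by
      rw [Nat.add_mul_mod_self_left]
      exact Nat.mod_eq_of_lt (by omega)
    unfold Nat.ModEq at h1
    rw [h3] at h1
    by_contra hcon
    have h4 : Nat.card (MulAction.fixedPoints (Subgroup.zpowers x') (Sylow 3 G)) = 0 ∨
        Nat.card (MulAction.fixedPoints (Subgroup.zpowers x') (Sylow 3 G)) = 1 := by omega
    rcases h4 with h4 | h4
    · rw [h4] at h1; simp at h1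
    · rw [h4, Nat.mod_eq_of_lt (by omega)] at h1; omega
  have h3 := (Finite.one_lt_card_iff_nontrivial).1 h2
  obtain ⟨A, B, hAB⟩ := exists_pair_ne (MulAction.fixedPoints (Subgroup.zpowers x') (Sylow 3 G))
  refine ⟨A.1, B.1, fun hc => hAB (Subtype.ext hc), ?_, ?_⟩
  · exact A.2 ⟨x', Subgroup.mem_zpowers x'⟩
  · exact B.2 ⟨x', Subgroup.mem_zpowers x'⟩

/-- no third fixed point -/
theorem no_third_F1 (h : SPkg G q) {x' : G} (hx3 : x' ^ 3 ≠ 1) (P₁ P₂ P₃ : Sylow 3 G)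
    (h12 : P₁ ≠ P₂) (h1 : x' • P₁ = P₁) (h2 : x' • P₂ = P₂) (h3 : x' • P₃ = P₃) :
    P₃ = P₁ ∨ P₃ = P₂ := by
  by_contra hcon
  push Not at hcon
  obtain ⟨a, ha, ha23⟩ := sylow_trans h P₁ P₂ P₃ h12.symm hcon.1
  have ha1 : a ≠ 1 := by
    rintro rfl
    rw [one_smul] at ha23
    exact hcon.2 ha23.symm
  have hxN : x' ∈ Subgroup.normalizer ((P₁ : Subgroup G) : Set G) :=
    Sylow.smul_eq_iff_mem_normalizer.1 h1
  have ha' : x' * a * x'⁻¹ ∈ P₁ := (Subgroup.mem_normalizer_iff.1 hxN a).1 ha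
  have h2' : x'⁻¹ • P₂ = P₂ := by
    conv_lhs => rw [← h2]
    rw [inv_smul_smul]
  have ha'23 : (x' * a * x'⁻¹) • P₂ = P₃ := by
    rw [mul_smul, mul_smul, h2', ha23, h3]
  have h4 : (a⁻¹ * (x' * a * x'⁻¹)) • P₂ = P₂ := by
    rw [mul_smul, ha'23, ← ha23, inv_smul_smul]
  have h5 := eq_one_of_mem_of_norm_F1a h P₁ P₂ h12.symm (mul_mem (inv_mem ha) ha') h4
  have h6 : x' * a = a * x' := by
    have h7 : x' * a * x'⁻¹ = a := (inv_mul_eq_one.1 h5).symm
    exact mul_inv_eq_iff_eq_mul.1 h7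
  exact hx3 (h.borExp P₁ x' (cent_mem h P₁ ha ha1 h6))

theorem two_fixed (h : SPkg G q) {t x : G} (ht : 2 * orderOf t = q - 1)
    (hx : x ∈ Subgroup.zpowers t) (hx1 : x ≠ 1) :
    ∃ P₁ P₂ : Sylow 3 G, P₁ ≠ P₂ ∧ t ∈ Subgroup.normalizer ((P₁ : Subgroup G) : Set G) ∧
      t ∈ Subgroup.normalizer ((P₂ : Subgroup G) : Set G) ∧
      ∀ P : Sylow 3 G, x ∈ Subgroup.normalizer ((P : Subgroup G) : Set G) → P = P₁ ∨ P = P₂ := by
  have hq8 := h.q8
  have hq27 := h.q27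
  have hq3 := h.q3
  have hox1 : orderOf x ≠ 1 := fun hc => hx1 (orderOf_eq_one_iff.1 hc)
  set r := (orderOf x).minFac with hrdef
  have hr : r.Prime := Nat.minFac_prime hox1
  have hrx : r ∣ orderOf x := Nat.minFac_dvd _
  have hxt : orderOf x ∣ orderOf t := orderOf_dvd_of_mem_zpowers hx
  have hrt : r ∣ orderOf t := hrx.trans hxt
  have hrq : r ∣ q - 1 := by rw [← ht]; exact Dvd.dvd.mul_left hrt 2
  have hr2 : r ≠ 2 := by
    intro hc
    rw [hc] at hrt
    obtain ⟨c, hc'⟩ := hrt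
    omega
  have hr3 : r ≠ 3 := by
    intro hc
    rw [hc] at hrq
    omega
  have hr5 : 5 ≤ r := by
    have h2 := hr.two_le
    by_contra hcon
    have : r = 4 := by omega
    rw [this] at hr
    exact absurd hr (by norm_num)
  set x' := x ^ (orderOf x / r) with hx'def
  have hx' : orderOf x' = r := orderOf_pow_orderOf_div (orderOf_pos x).ne' hrx
  have hx3 : x' ^ 3 ≠ 1 := by
    intro hc
    have := orderOf_dvd_of_pow_eq_one hc
    rw [hx'] at this
    have := Nat.le_of_dvd (by norm_num) this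
    omega
  obtain ⟨P₁, P₂, h12, h1, h2⟩ := exists_two_fixed_F1 h hr hx' hr5 hrq
  have hcomm : t * x' = x' * t := by
    obtain ⟨j, rfl⟩ := Subgroup.mem_zpowers_iff.1 hx
    rw [hx'def]
    exact ((Commute.refl t).zpow_right j).pow_right _
  have hfix : ∀ P : Sylow 3 G, x' • P = P → x' • (t • P) = t • P := by
    intro P hP
    rw [← mul_smul, ← hcomm, mul_smul, hP]
  have ht1 := no_third_F1 h hx3 P₁ P₂ (t • P₁) h12 h1 h2 (hfix P₁ h1)
  have ht2 := no_third_F1 h hx3 P₁ P₂ (t • P₂) h12 h1 h2 (hfix P₂ h2)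
  have hne : t • P₁ ≠ t • P₂ := fun hc => h12 (smul_left_cancel t hc)
  have hk : t • P₁ = P₁ := by
    rcases ht1 with ht1 | ht1
    · exact ht1
    · exfalso
      have ht2' : t • P₂ = P₁ := by
        rcases ht2 with ht2 | ht2
        · exact ht2
        · exact absurd (ht1.trans ht2.symm) hne
      have hsq : (t * t) ∈ Subgroup.normalizer ((P₁ : Subgroup G) : Set G) := by
        apply Sylow.smul_eq_iff_mem_normalizer.1
        rw [mul_smul, ht1, ht2']
      obtain ⟨j, hj⟩ : ∃ j, orderOf t + 1 = 2 * j := ⟨(orderOf t + 1) / 2, by omega⟩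
      have htj : t = (t * t) ^ j := by
        rw [← pow_two, ← pow_mul, ← hj, pow_succ, pow_orderOf_eq_one, one_mul]
      have : t ∈ Subgroup.normalizer ((P₁ : Subgroup G) : Set G) := by
        rw [htj]; exact pow_mem hsq j
      have h9 := Sylow.smul_eq_iff_mem_normalizer.2 this
      rw [ht1] at h9
      exact h12 h9.symm
  have hk2 : t • P₂ = P₂ := by
    rcases ht2 with ht2 | ht2
    · exact absurd (hk.trans ht2.symm) hne
    · exact ht2
  refine ⟨P₁, P₂, h12, Sylow.smul_eq_iff_mem_normalizer.1 hk,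
    Sylow.smul_eq_iff_mem_normalizer.1 hk2, fun P hP => ?_⟩
  have hP' : x' ∈ Subgroup.normalizer ((P : Subgroup G) : Set G) := pow_mem hP _
  exact no_third_F1 h hx3 P₁ P₂ P h12 h1 h2 (Sylow.smul_eq_iff_mem_normalizer.2 hP')

end Cfsg.Agent.Lib.Helper41.Sol3
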