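import Cfsg.Agent.Lib.Helper41.Sol3.Defs
import Cfsg.Agent.Lib.Helper41.Sol3.A1
import Cfsg.Agent.Lib.Helper41.Sol3.A2

/-!
# S2258 farm, piece F2: the intersection of two Borel subgroups is a split torus
-/

set_option autoImplicit false
set_option linter.unusedSectionVars false

namespace Cfsg.Agent.Lib.Helper41.Sol3

variable {G : Type*} [Group G] [Finite G] {q : ℕ}

theorem bor_inter (h : SPkg G q) (P₁ P₂ : Sylow 3 G) (hne : P₁ ≠ P₂) {t : G}
    (ht : 2 * orderOf t = q - 1) (h1 : t ∈ Subgroup.normalizer ((P₁ : Subgroup G) : Set G))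
    (h2 : t ∈ Subgroup.normalizer ((P₂ : Subgroup G) : Set G)) {g : G}
    (hg1 : g ∈ Subgroup.normalizer ((P₁ : Subgroup G) : Set G))
    (hg2 : g ∈ Subgroup.normalizer ((P₂ : Subgroup G) : Set G)) : g ∈ Subgroup.zpowers t := by
  set N₁ := Subgroup.normalizer ((P₁ : Subgroup G) : Set G) with hN₁
  set N₂ := Subgroup.normalizer ((P₂ : Subgroup G) : Set G) with hN₂
  set D : Subgroup G := N₁ ⊓ N₂ with hD
  have htriv : ∀ a : G, a ∈ D → a ∈ P₁ → a = 1 := by
    intro a haD haP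
    by_contra ha1
    have ha2 : a ∈ P₂ := bor_three P₂ haD.2 (h.borExp P₁ a haP)
    exact hne (sylow_unique h P₂ P₁ ha2 haP ha1)
  have hPN : ∀ a : G, a ∈ P₁ → a ∈ N₁ := fun a ha => Subgroup.le_normalizer ha
  let f : D × (P₁ : Subgroup G) → N₁ := fun x => ⟨x.1.1 * x.2.1, mul_mem x.1.2.1 (hPN _ x.2.2)⟩
  have hinj : Function.Injective f := by
    rintro ⟨⟨d, hd⟩, ⟨a, ha⟩⟩ ⟨⟨d', hd'⟩, ⟨a', ha'⟩⟩ heq
    have h3 : d * a = d' * a' := congrArg Subtype.val heq
    have h4 : d'⁻¹ * d = a' * a⁻¹ := by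
      have : d = d' * a' * a⁻¹ := by rw [← h3]; group
      rw [this]; group
    have h5 : d'⁻¹ * d = 1 :=
      htriv _ (mul_mem (inv_mem hd') hd) (by rw [h4]; exact mul_mem ha' (inv_mem ha))
    have h6 : d = d' := by
      have : d = d' * (d'⁻¹ * d) := by group
      rw [this, h5, mul_one]
    subst h6
    have h7 : a = a' := mul_left_cancel h3
    subst h7
    rfl
  have hcard := Nat.card_le_card_of_injective f hinj
  rw [Nat.card_prod] at hcard
  have hP : Nat.card (P₁ : Subgroup G) = q := h.borCard P₁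
  rw [hP] at hcard
  have hN := h.borN P₁
  rw [← hN₁] at hN
  have h27 := h.q27
  have hDk : Nat.card D ≤ orderOf t := by
    have h8 : 2 * (Nat.card D * q) ≤ q * (2 * orderOf t) := by
      rw [ht, ← hN]; omega
    have h9 : q * (2 * Nat.card D) ≤ q * (2 * orderOf t) := by
      calc q * (2 * Nat.card D) = 2 * (Nat.card D * q) := by ring
        _ ≤ _ := h8
    have := Nat.le_of_mul_le_mul_left h9 (by omega)
    omega
  have hle : Subgroup.zpowers t ≤ D := by
    rw [Subgroup.zpowers_le]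
    exact ⟨h1, h2⟩
  have heq : Subgroup.zpowers t = D :=
    Subgroup.eq_of_le_of_card_ge hle (by rw [Nat.card_zpowers]; exact hDk)
  rw [heq]
  exact ⟨hg1, hg2⟩

end Cfsg.Agent.Lib.Helper41.Sol3
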