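import Cfsg.Agent.Lib.Helper41.Sol3.Defs
import Cfsg.Agent.Lib.Helper41.Sol3.C1

set_option autoImplicit false

namespace Cfsg.Agent.Lib.Helper41.Sol3

variable {G : Type*} [Group G] [Finite G] {q : ℕ}

theorem I1_exists_inv (h : SPkg G q) : ∃ x : G, orderOf x = 2 := by
  haveI : Fact (Nat.Prime 2) := ⟨Nat.prime_two⟩
  apply exists_prime_orderOf_dvd_card'
  have hq8 := h.q8
  have hcard := h.card
  obtain ⟨m, rfl⟩ : ∃ m, q = 8 * m + 3 := ⟨q / 8, by omega⟩
  have h1 : 8 * m + 3 - 1 = 8 * m + 2 := by omega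
  rw [h1] at hcard
  refine ⟨(8 * m + 3) * (4 * m + 1) * (4 * m + 2), ?_⟩
  have h2 : 2 * Nat.card G = 2 * (2 * ((8 * m + 3) * (4 * m + 1) * (4 * m + 2))) := by
    rw [hcard]; ring
  exact Nat.eq_of_mul_eq_mul_left (by norm_num) h2

theorem card_inv (h : SPkg G q) : 2 * {u : G | orderOf u = 2}.ncard = q * (q - 1) := by
  obtain ⟨x, hx⟩ := I1_exists_inv h
  obtain ⟨N, hNcard, hN, -⟩ := cent_inv h hx
  have hset : {u : G | orderOf u = 2} = MulAction.orbit (ConjAct G) x := by
    ext u
    rw [ConjAct.mem_orbit_conjAct]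
    constructor
    · intro hu
      exact h.invc u x hu hx
    · intro hu
      obtain ⟨c, hc⟩ := isConj_iff.1 hu
      have h1 : orderOf (MulAut.conj c u) = orderOf u := MulEquiv.orderOf_eq _ _
      rw [MulAut.conj_apply, hc, hx] at h1
      exact h1.symm
  have hNeq : N = Subgroup.centralizer {x} := by
    ext g
    rw [hN, Subgroup.mem_centralizer_iff]
    constructor
    · rintro hg _ rfl
      exact hg.symm
    · intro hg
      exact (hg x rfl).symm
  have h1 := MulAction.index_stabilizer (ConjAct G) x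
  have h2 := Subgroup.index_mul_card (MulAction.stabilizer (ConjAct G) x)
  rw [← Subgroup.nat_card_centralizer_nat_card_stabilizer, ← hNeq, hNcard, h1, ← hset] at h2
  have h3 : Nat.card (ConjAct G) = Nat.card G := rfl
  rw [h3] at h2
  have h4 := h.card
  rw [← h2] at h4
  have h5 : (2 * {u : G | orderOf u = 2}.ncard) * (q + 1) = (q * (q - 1)) * (q + 1) := by
    rw [← h4]; ring
  exact Nat.eq_of_mul_eq_mul_right (by omega) h5

end Cfsg.Agent.Lib.Helper41.Sol3
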