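import Cfsg.Agent.Lib.Helper41.Sol3.Z
import Cfsg.Agent.Lib.Helper41.Dickson.Solv
import Cfsg.Agent.Lib.Helper41.Dickson.Orders
import Cfsg.Agent.S0144

/-!
# S2258: `PSL₂(3^p)` satisfies the abstract package `SPkg`
-/

set_option autoImplicit false
set_option linter.unusedVariables false

namespace Cfsg.Agent.Lib.Helper41.Sol3

open Cfsg.Agent.Lib.Helper41.Bin Cfsg.Agent.Lib.Helper41.Dickson Matrix

variable {F : Type*} [Field F] [Fintype F]

local notation "PSL2" => Matrix.ProjectiveSpecialLinearGroup (Fin 2) F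

theorem charP_three_of_card {n : ℕ} (hK : Fintype.card F = 3 ^ n) : CharP F 3 := by
  obtain ⟨p, hp⟩ := CharP.exists F
  obtain ⟨k, hpp, hk⟩ := FiniteField.card F p
  have h1 : p ∣ 3 ^ n := by
    rw [← hK, hk]
    exact dvd_pow_self p k.ne_zero
  have h2 : p = 3 := (Nat.prime_dvd_prime_iff_eq hpp Nat.prime_three).mp (hpp.dvd_of_dvd_pow h1)
  exact h2 ▸ hp

theorem pow_mod_eight (p : ℕ) (hodd : Odd p) : 3 ^ p % 8 = 3 := by
  obtain ⟨m, rfl⟩ := hodd
  rw [pow_succ, pow_mul, Nat.mul_mod, Nat.pow_mod]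
  norm_num

theorem pow_sq_mod_five (p : ℕ) (hodd : Odd p) : (3 ^ p) ^ 2 % 5 = 4 := by
  obtain ⟨m, rfl⟩ := hodd
  have : (3 ^ (2 * m + 1)) ^ 2 = 81 ^ m * 9 := by
    rw [← pow_mul, show (2 * m + 1) * 2 = 4 * m + 2 by ring, pow_add, pow_mul]
    norm_num
  rw [this, Nat.mul_mod, Nat.pow_mod]
  norm_num

theorem solvable_of_card_12 {M : Type*} [Group M] (h : Nat.card M = 12) : Group.IsSolvable M := by
  have : Finite M := Nat.finite_of_card_ne_zero (by omega)
  exact Cfsg.Agent.S0144.result 2 3 2 1 Nat.prime_two Nat.prime_three (by rw [h]; norm_num)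

theorem sub_psl (p : ℕ) (hp : p.Prime) (hodd : Odd p) (hF : Fintype.card F = 3 ^ p)
    [CharP F 3] (M : Subgroup PSL2) (hM : M ≠ ⊤) :
    IsCyclic M ∨ (∃ k : ℕ, Nonempty (M ≃* DihedralGroup k)) ∨
    (∃ P : Sylow 3 PSL2, M ≤ Subgroup.normalizer ((P : Subgroup PSL2) : Set PSL2)) ∨
      Nat.card M = 12 := by
  have h8 := pow_mod_eight p hodd
  have h5 := pow_sq_mod_five p hodd
  set q := 3 ^ p with hq
  have hgcd : Nat.gcd 2 (Fintype.card F - 1) = 2 := by
    rw [hF]
    apply Nat.gcd_eq_left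
    omega
  have hcard := natCard_PSL2 F
  rw [Nat.card_eq_fintype_card, hgcd, hF] at hcard
  have hdvd : Nat.card M ∣ Nat.card PSL2 := Subgroup.card_subgroup_dvd_card M
  -- 8 does not divide |G|, 5 does not divide |G|
  have hq1 : 1 ≤ q := by omega
  have hfac : q ^ 2 - 1 = (q - 1) * (q + 1) := by
    obtain ⟨r, hr⟩ : ∃ r, q = r + 1 := ⟨q - 1, by omega⟩
    rw [hr]
    simp only [Nat.add_sub_cancel]
    have : (r + 1) ^ 2 = r * (r + 1 + 1) + 1 := by ring
    rw [this, Nat.add_sub_cancel]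
  have no8 : ¬ 8 ∣ Nat.card PSL2 := by
    intro h
    obtain ⟨c, hc⟩ := h
    obtain ⟨m, hm⟩ : ∃ m, q = 8 * m + 3 := ⟨q / 8, by omega⟩
    rw [hc, hfac, hm] at hcard
    have e1 : 8 * m + 3 - 1 = 2 * (4 * m + 1) := by omega
    have e2 : 8 * m + 3 + 1 = 4 * (2 * m + 1) := by omega
    rw [e1, e2] at hcard
    have : 2 * c = (8 * m + 3) * (4 * m + 1) * (2 * m + 1) := by nlinarith
    have hodd' : Odd ((8 * m + 3) * (4 * m + 1) * (2 * m + 1)) := by
      exact Odd.mul (Odd.mul ⟨4 * m + 1, by ring⟩ ⟨2 * m, by ring⟩) ⟨m, by ring⟩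
    rw [← this] at hodd'
    exact (Nat.not_even_iff_odd.2 hodd') (even_two_mul c)
  have no5 : ¬ 5 ∣ Nat.card PSL2 := by
    intro h
    have h1 : 5 ∣ q * (q ^ 2 - 1) := by rw [← hcard]; exact Dvd.dvd.mul_left h 2
    rcases (Nat.Prime.dvd_mul (by norm_num)).1 h1 with h2 | h2
    · have : 5 ∣ q ^ 2 := Dvd.dvd.pow h2 (by norm_num)
      omega
    · have : 1 ≤ q ^ 2 := Nat.one_le_pow _ _ (by omega)
      omega
  rcases dickson_card 3 M with ⟨h1, -⟩ | ⟨k, -, h1, -⟩ | h1 | ⟨-, h1⟩ | ⟨-, h1⟩ | ⟨-, h1⟩ |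
      ⟨K, m, hm, hKm, hK2, h1⟩
  · exact Or.inl h1
  · exact Or.inr (Or.inl ⟨k, h1⟩)
  · exact Or.inr (Or.inr (Or.inl h1))
  · exact Or.inr (Or.inr (Or.inr h1))
  · exfalso
    rw [h1] at hdvd
    exact no8 (Dvd.dvd.trans (by norm_num) hdvd)
  · exfalso
    rw [h1] at hdvd
    exact no5 (Dvd.dvd.trans (by norm_num) hdvd)
  · -- subfield groups
    rw [hF] at hKm
    -- card K is a power of 3
    have hK3 : ∃ j, Nat.card K = 3 ^ j := by
      have : Nat.card K ∣ 3 ^ p := by rw [← hq, hKm]; exact dvd_pow_self _ (by omega)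
      obtain ⟨j, -, hj⟩ := (Nat.dvd_prime_pow Nat.prime_three).1 this
      exact ⟨j, hj⟩
    obtain ⟨j, hj⟩ := hK3
    have hjm : j * m = p := by
      rw [hj, ← pow_mul] at hKm
      exact (Nat.pow_right_injective (le_refl 2 |>.trans (by norm_num)) hKm).symm
    have hj1 : j = 1 ∨ j = p := (Nat.dvd_prime hp).1 ⟨m, hjm.symm⟩
    rcases hj1 with rfl | rfl
    · -- K = F_3
      rw [pow_one] at hj
      rcases h1 with ⟨-, h1⟩ | ⟨-, h1⟩
      · rw [hgcd, hj] at h1
        right; right; right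
        omega
      · exfalso
        rw [hj] at h1
        rw [h1] at hdvd
        exact no8 (Dvd.dvd.trans (by norm_num) hdvd)
    · -- K = F
      exfalso
      rcases h1 with ⟨-, h1⟩ | ⟨-, h1⟩
      · rw [hgcd, hj, ← hq, ← hcard] at h1
        apply hM
        apply Subgroup.eq_top_of_card_eq
        omega
      · rw [hj, ← hq, ← hcard] at h1
        have hpos : 0 < Nat.card PSL2 := Nat.card_pos
        have := Nat.le_of_dvd hpos hdvd
        omega

theorem spkg_psl (p : ℕ) (hp : p.Prime) (hodd : Odd p) (hF : Fintype.card F = 3 ^ p) :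
    SPkg PSL2 (3 ^ p) := by
  have : CharP F 3 := charP_three_of_card hF
  have h8 := pow_mod_eight p hodd
  have hp3 : 3 ≤ p := by
    rcases hodd with ⟨m, rfl⟩
    have := hp.two_le
    omega
  have h27 : 27 ≤ 3 ^ p := by
    calc 27 = 3 ^ 3 := by norm_num
      _ ≤ 3 ^ p := Nat.pow_le_pow_right (by norm_num) hp3
  have hgcd : Nat.gcd 2 (Fintype.card F - 1) = 2 := by
    rw [hF]
    apply Nat.gcd_eq_left
    omega
  have hsub := sub_psl p hp hodd hF
  refine
    { q8 := h8
      q3 := dvd_pow_self 3 (by omega)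
      q27 := h27
      card := ?_
      ord := ?_
      borCard := fun P => by rw [← hF]; exact (borel_package 3 P).2.1
      borN := fun P => by
        have := (borel_package 3 P).2.2.1
        rw [hgcd, hF] at this
        exact this
      borComm := fun P => (borel_package 3 P).2.2.2.2.1
      borExp := fun P => (borel_package 3 P).2.2.2.2.2
      tor := ?_
      sub := hsub
      sol := ?_
      invc := fun a b ha hb => invol_conj_odd two_ne a b ha hb
      zc := fun y hy => by rw [← hF]; exact zc_psl y hy }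
  · have hcard := natCard_PSL2 F
    rw [Nat.card_eq_fintype_card, hgcd, hF] at hcard
    rw [hcard]
    obtain ⟨r, hr⟩ : ∃ r, 3 ^ p = r + 1 := ⟨3 ^ p - 1, by omega⟩
    rw [hr]
    simp only [Nat.add_sub_cancel]
    have : (r + 1) ^ 2 = r * (r + 1 + 1) + 1 := by ring
    rw [this, Nat.add_sub_cancel]
    ring
  · intro g
    have := psl2_orderOf_dvd 3 g
    rw [hgcd, hF] at this
    rcases this with h | h | h
    · exact Or.inl h
    · right; left
      exact Nat.mul_dvd_of_dvd_div (by omega) h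
    · right; right
      exact Nat.mul_dvd_of_dvd_div (by omega) h
  · intro c hc
    have := torus_package 3 c hc
    rw [hgcd, hF] at this
    exact this
  · intro M
    constructor
    · rintro hs rfl
      have h4 : 4 ≤ Fintype.card F := by rw [hF]; omega
      apply psl2_not_solvable (F := F) h4
      exact solvable_of_mulEquiv (Subgroup.topEquiv (G := PSL2)).symm hs
    · intro hM
      rcases hsub M hM with h | ⟨k, ⟨e⟩⟩ | ⟨P, hP⟩ | h
      · obtain ⟨g, hg⟩ := h.exists_generator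
        have : IsMulCommutative M := IsCyclic.isMulCommutative
        exact solvable_of_comm_mem (⊥ : Subgroup M) (by
          intro a ha b hb
          rw [Subgroup.mem_bot] at ha hb
          rw [ha, hb]) (by
          intro a b
          rw [Subgroup.mem_bot, mul_comm' a b]
          group)
      · exact solvable_of_mulEquiv e (dihedral_solvable k)
      · exact borel_solvable 3 P M hP
      · exact solvable_of_card_12 h

end Cfsg.Agent.Lib.Helper41.Sol3
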