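import Cfsg.Agent.Lib.Helper41.Sol3.Defs
import Cfsg.Agent.Lib.Helper41.Sol3.A2
import Cfsg.Agent.Lib.Helper41.Sol3.A3

set_option autoImplicit false

namespace Cfsg.Agent.Lib.Helper41.Sol3

variable {G : Type*} [Group G] [Finite G] {q : ℕ}

/-! ### [M12] subgroups of order 12 -/

theorem m12 (h : SPkg G q) (M : Subgroup G) (hM : Nat.card M = 12) {y b : G} (hy : y ∈ M)
    (hy3 : orderOf y = 3) (hb : b ∈ M) :
    b ∈ Subgroup.zpowers y ∨
      ∃ (z : G) (i : ℕ), orderOf z = 2 ∧ (z * y) ^ 3 = 1 ∧ i < 3 ∧ b = z * y ^ i := by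
  have : Fact (Nat.Prime 2) := ⟨Nat.prime_two⟩
  obtain ⟨V, hV⟩ : ∃ V : Subgroup M, Nat.card V = 2 ^ 2 :=
    Sylow.exists_subgroup_card_pow_prime 2 (by rw [hM]; norm_num)
  have hY : Nat.card (Subgroup.zpowers (⟨y, hy⟩ : M)) = 3 := by
    rw [Nat.card_zpowers, Subgroup.orderOf_mk, hy3]
  have hcompl : Subgroup.IsComplement' V (Subgroup.zpowers (⟨y, hy⟩ : M)) :=
    Subgroup.isComplement'_of_coprime (by rw [hV, hY, hM]; norm_num) (by rw [hV, hY]; norm_num)
  obtain ⟨⟨v, y'⟩, hvy⟩ := hcompl.2 ⟨b, hb⟩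
  have hvy' : (v : M) * (y' : M) = ⟨b, hb⟩ := hvy
  obtain ⟨i, hi3, hi⟩ : ∃ i : ℕ, i < 3 ∧ ((y' : M) : G) = y ^ i := by
    have h1 := (isOfFinOrder_of_finite (⟨y, hy⟩ : M)).mem_powers_iff_mem_zpowers.2 y'.2
    obtain ⟨n, hn⟩ := Submonoid.mem_powers_iff _ _ |>.1 h1
    refine ⟨n % 3, Nat.mod_lt _ (by norm_num), ?_⟩
    rw [← hn, Subgroup.coe_pow, ← hy3, pow_mod_orderOf]
  have hb' : b = ((v : M) : G) * y ^ i := by
    rw [← hi]
    exact (congrArg Subtype.val hvy').symm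
  obtain ⟨z, hz⟩ : ∃ z : G, z = ((v : M) : G) := ⟨_, rfl⟩
  rw [← hz] at hb'
  have hzM : z ∈ M := hz ▸ (v : M).2
  by_cases hz1 : z = 1
  · left
    rw [hb', hz1, one_mul]
    exact Subgroup.npow_mem_zpowers y i
  · right
    have hz4 : orderOf z ∣ 4 := by
      have h1 : orderOf v ∣ Nat.card V := orderOf_dvd_natCard v
      rw [hV] at h1
      rw [hz, Subgroup.orderOf_coe, Subgroup.orderOf_coe]
      exact h1
    have hz2 : orderOf z = 2 := by
      rcases order_dvd_twelve h (hz4.trans (by norm_num)) with h1 | h1 | h1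
      · exact absurd h1 hz1
      · exact h1
      · rw [h1] at hz4; omega
    refine ⟨z, i, hz2, ?_, hi3, hb'⟩
    have hzy : orderOf (z * y) ∣ 12 := by
      have h1 : orderOf (⟨z * y, M.mul_mem hzM hy⟩ : M) ∣ Nat.card M := orderOf_dvd_natCard _
      rwa [Subgroup.orderOf_mk, hM] at h1
    have hzz : z * z = 1 := by
      rw [← pow_two, ← hz2]; exact pow_orderOf_eq_one z
    rcases order_dvd_twelve h hzy with h1 | h1 | h1
    · exfalso
      have : z = y⁻¹ := eq_inv_of_mul_eq_one_left h1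
      rw [this, orderOf_inv, hy3] at hz2
      omega
    · exfalso
      apply not_inv_23 h hz2 hy3
      have h2 : z * y * (z * y) = 1 := by
        rw [← pow_two, ← h1]; exact pow_orderOf_eq_one _
      have hzi : z⁻¹ = z := inv_eq_of_mul_eq_one_left hzz
      rw [hzi]
      apply eq_inv_of_mul_eq_one_left
      rw [← h2]; group
    · rw [← h1]; exact pow_orderOf_eq_one _

end Cfsg.Agent.Lib.Helper41.Sol3
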