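import Cfsg.Agent.Lib.Helper41.Sol3.Defs
import Cfsg.Agent.Lib.Helper41.Sol3.I1
import Cfsg.Agent.Lib.Helper41.Sol3.N3

set_option autoImplicit false

namespace Cfsg.Agent.Lib.Helper41.Sol3

variable {G : Type*} [Group G] [Finite G] {q : ℕ}

/-! ### [S4] double counting -/

omit [Finite G] in
theorem S4_conj (x g : G) :
    {y : G | orderOf y = 3 ∧ (g * x * g⁻¹ * y) ^ 3 = 1}.ncard =
      {y : G | orderOf y = 3 ∧ (x * y) ^ 3 = 1}.ncard := by
  have hset : {y : G | orderOf y = 3 ∧ (g * x * g⁻¹ * y) ^ 3 = 1} =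
      (MulAut.conj g) '' {y : G | orderOf y = 3 ∧ (x * y) ^ 3 = 1} := by
    ext y
    constructor
    · rintro ⟨h1, h2⟩
      refine ⟨g⁻¹ * y * g, ⟨?_, ?_⟩, ?_⟩
      · have : g⁻¹ * y * g = MulAut.conj g⁻¹ y := by simp [MulAut.conj_apply]
        rw [this, MulEquiv.orderOf_eq, h1]
      · have : x * (g⁻¹ * y * g) = g⁻¹ * (g * x * g⁻¹ * y) * g⁻¹⁻¹ := by group
        rw [this, conj_pow, h2]; group
      · rw [MulAut.conj_apply]; group
    · rintro ⟨y', ⟨h1, h2⟩, rfl⟩
      refine ⟨?_, ?_⟩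
      · rw [MulEquiv.orderOf_eq, h1]
      · rw [MulAut.conj_apply]
        have : g * x * g⁻¹ * (g * y' * g⁻¹) = g * (x * y') * g⁻¹ := by group
        rw [this, conj_pow, h2]; group
  rw [hset, Set.ncard_image_of_injective _ (MulAut.conj g).injective]

theorem card_S4 (h : SPkg G q) {x : G} (hx : orderOf x = 2) :
    {y : G | orderOf y = 3 ∧ (x * y) ^ 3 = 1}.ncard = 2 * (q + 1) := by
  classical
  have := Fintype.ofFinite G
  obtain ⟨f, hf⟩ : ∃ f, f = {y : G | orderOf y = 3 ∧ (x * y) ^ 3 = 1}.ncard := ⟨_, rfl⟩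
  rw [← hf]
  let s : Finset G := Finset.univ.filter (fun z => orderOf z = 2)
  let t : Finset G := Finset.univ.filter (fun y => orderOf y = 3)
  have hs : 2 * s.card = q * (q - 1) := by
    rw [← card_inv h, ← Set.ncard_coe_finset]
    congr 2
    ext z
    simp [s]
  have ht : t.card = (q + 1) * (q - 1) := by
    rw [← card_three h, ← Set.ncard_coe_finset]
    congr 1
    ext z
    simp [t]
  have hdc := Finset.sum_card_bipartiteAbove_eq_sum_card_bipartiteBelow (s := s) (t := t)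
    (fun z y : G => (z * y) ^ 3 = 1)
  have hL : ∀ z ∈ s, (Finset.bipartiteAbove (fun z y : G => (z * y) ^ 3 = 1) t z).card = f := by
    intro z hz
    have hz2 : orderOf z = 2 := by simpa [s] using hz
    obtain ⟨g, hg⟩ := isConj_iff.1 (h.invc x z hx hz2)
    rw [hf, ← S4_conj x g, hg, ← Set.ncard_coe_finset]
    congr 1
    ext y
    simp [Finset.bipartiteAbove, t]
  have hR : ∀ y ∈ t, (Finset.bipartiteBelow (fun z y : G => (z * y) ^ 3 = 1) s y).card = q := by
    intro y hy
    have hy3 : orderOf y = 3 := by simpa [t] using hy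
    rw [← h.zc y hy3, ← Set.ncard_coe_finset]
    congr 1
    ext z
    simp [Finset.bipartiteBelow, s]
  rw [Finset.sum_congr rfl hL, Finset.sum_congr rfl hR, Finset.sum_const, Finset.sum_const,
    smul_eq_mul, smul_eq_mul, ht] at hdc
  have h27 := h.q27
  have hpos : 0 < q * (q - 1) := by apply Nat.mul_pos <;> omega
  have h1 : q * (q - 1) * f = q * (q - 1) * (2 * (q + 1)) := by
    calc q * (q - 1) * f = 2 * (s.card * f) := by rw [← hs]; ring
      _ = 2 * ((q + 1) * (q - 1) * q) := by rw [hdc]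
      _ = _ := by ring
  exact Nat.eq_of_mul_eq_mul_left hpos h1

end Cfsg.Agent.Lib.Helper41.Sol3
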