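import Cfsg.Agent.Lib.Helper41.Sol3.Defs
set_option autoImplicit false
namespace Cfsg.Agent.Lib.Helper41.Sol3

theorem ncard_union_three {α : Type*} [Finite α] (A B C T : Set α) (hAB : A ∩ B = T)
    (hAC : A ∩ C = T) (hBC : B ∩ C = T) :
    (A ∪ B ∪ C).ncard + 2 * T.ncard = A.ncard + B.ncard + C.ncard := by
  have h1 := Set.ncard_union_add_ncard_inter A B
  have h2 := Set.ncard_union_add_ncard_inter (A ∪ B) C
  have h3 : (A ∪ B) ∩ C = T := by
    rw [Set.union_inter_distrib_right, hAC, hBC, Set.union_self]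
  rw [hAB] at h1
  rw [h3] at h2
  omega

end Cfsg.Agent.Lib.Helper41.Sol3
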