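import Cfsg.Agent.Lib.Helper41.Sol3.Defs
import Cfsg.Agent.Lib.Helper41.Sol3.C1
import Cfsg.Agent.Lib.Helper41.Sol3.I1

set_option autoImplicit false

namespace Cfsg.Agent.Lib.Helper41.Sol3

variable {G : Type*} [Group G] [Finite G] {q : ℕ}

omit [Finite G] in
theorem V0_norm (S : Set G) (g : G) (h1 : ∀ s ∈ S, g * s * g⁻¹ ∈ S)
    (h2 : ∀ s ∈ S, g⁻¹ * s * g ∈ S) :
    g ∈ Subgroup.normalizer ((Subgroup.centralizer S : Subgroup G) : Set G) := by
  rw [Subgroup.mem_normalizer_iff]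
  intro d
  rw [Subgroup.mem_centralizer_iff, Subgroup.mem_centralizer_iff]
  constructor
  · intro hd s hs
    have h3 := hd _ (h2 s hs)
    calc s * (g * d * g⁻¹) = g * ((g⁻¹ * s * g) * d) * g⁻¹ := by group
      _ = g * (d * (g⁻¹ * s * g)) * g⁻¹ := by rw [h3]
      _ = g * d * g⁻¹ * s := by group
  · intro hd s hs
    have h3 := hd _ (h1 s hs)
    calc s * d = g⁻¹ * ((g * s * g⁻¹) * (g * d * g⁻¹)) * g := by group
      _ = g⁻¹ * ((g * d * g⁻¹) * (g * s * g⁻¹)) * g := by rw [h3]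
      _ = d * s := by group

theorem four_group (h : SPkg G q) {y z : G} (hy : orderOf y = 3) (hz : orderOf z = 2)
    (hzy : (z * y) ^ 3 = 1) : ∃ H : Subgroup G, H ≠ ⊤ ∧ z ∈ H ∧ y ∈ H := by
  have hq27 := h.q27
  have hz2 : z * z = 1 := by rw [← pow_two, ← hz]; exact pow_orderOf_eq_one z
  have hy3 : y * y * y = 1 := by
    have : y ^ 3 = 1 := by rw [← hy]; exact pow_orderOf_eq_one y
    rw [← this, pow_succ, pow_succ, pow_one]
  have hzy' : z * y * (z * y) * (z * y) = 1 := by rw [← hzy, pow_succ, pow_succ, pow_one]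
  obtain ⟨z1, hz1⟩ : ∃ z1, z1 = y * z * y⁻¹ := ⟨_, rfl⟩
  obtain ⟨z2, hz2d⟩ : ∃ z2, z2 = y * z1 * y⁻¹ := ⟨_, rfl⟩
  have hA : z * z1 * z2 = 1 := by
    calc z * z1 * z2 = (z * y * (z * y) * (z * y)) * (y * y * y)⁻¹ := by
          rw [hz2d, hz1]; group
      _ = 1 := by rw [hzy', hy3, inv_one, mul_one]
  have hz1sq : z1 * z1 = 1 := by
    calc z1 * z1 = y * (z * z) * y⁻¹ := by rw [hz1]; group
      _ = 1 := by rw [hz2]; group
  have hz2sq : z2 * z2 = 1 := by
    calc z2 * z2 = y * (z1 * z1) * y⁻¹ := by rw [hz2d]; group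
      _ = 1 := by rw [hz1sq]; group
  have hzinv : z⁻¹ = z := inv_eq_of_mul_eq_one_left hz2
  have hz1inv : z1⁻¹ = z1 := inv_eq_of_mul_eq_one_left hz1sq
  have hz2inv : z2⁻¹ = z2 := inv_eq_of_mul_eq_one_left hz2sq
  have h12 : z * z1 = z2 := by
    rw [mul_eq_one_iff_eq_inv, hz2inv] at hA
    exact hA
  have c01 : Commute z z1 := by
    have h3 : (z * z1)⁻¹ = z1 * z := by rw [mul_inv_rev, hzinv, hz1inv]
    rw [h12, hz2inv, ← h12] at h3
    exact h3
  have c02 : Commute z z2 := by rw [← h12]; exact (Commute.refl z).mul_right c01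
  have c12 : Commute z1 z2 := by rw [← h12]; exact c01.symm.mul_right (Commute.refl z1)
  have hy2 : y * z2 * y⁻¹ = z := by
    calc y * z2 * y⁻¹ = (y * y * y) * z * (y * y * y)⁻¹ := by rw [hz2d, hz1]; group
      _ = z := by rw [hy3]; group
  have hyi1 : y⁻¹ * z1 * y = z := by rw [hz1]; group
  have hyi2 : y⁻¹ * z2 * y = z1 := by rw [hz2d]; group
  have hyi0 : y⁻¹ * z * y = z2 := by rw [← hy2]; group
  have hconj : ∀ a b : G, Commute a b → a * b * a⁻¹ = b := by
    intro a b hab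
    rw [hab.eq, mul_assoc, mul_inv_cancel, mul_one]
  have hconj' : ∀ a b : G, Commute a b → a⁻¹ * b * a = b := by
    intro a b hab
    rw [mul_assoc, ← hab.eq, ← mul_assoc, inv_mul_cancel, one_mul]
  refine ⟨Subgroup.normalizer ((Subgroup.centralizer ({z, z1, z2} : Set G) : Subgroup G) : Set G),
    ?_, ?_, ?_⟩
  · intro htop
    have hn : (Subgroup.centralizer ({z, z1, z2} : Set G)).Normal :=
      Subgroup.normalizer_eq_top_iff.1 htop
    have hzD : z ∈ Subgroup.centralizer ({z, z1, z2} : Set G) := by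
      rw [Subgroup.mem_centralizer_iff]
      rintro s (rfl | rfl | rfl)
      · rfl
      · exact c01.symm.eq
      · exact c02.symm.eq
    obtain ⟨N, hNcard, hN, -⟩ := cent_inv h hz
    have hsub : {u : G | orderOf u = 2} ⊆ (N : Set G) := by
      intro u hu
      obtain ⟨c, hc⟩ := isConj_iff.1 (h.invc z u hz hu)
      have h3 := hn.conj_mem z hzD c
      rw [hc, Subgroup.mem_centralizer_iff] at h3
      exact (hN u).2 (h3 z (by simp)).symm
    have h4 := Set.ncard_le_ncard hsub (Set.toFinite _)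
    have h5 : (N : Set G).ncard = q + 1 := by
      rw [← hNcard]; rfl
    have h6 := card_inv h
    rw [h5] at h4
    obtain ⟨m, rfl⟩ : ∃ m, q = m + 27 := ⟨q - 27, by omega⟩
    have h7 : m + 27 - 1 = m + 26 := by omega
    rw [h7] at h6
    nlinarith
  · apply V0_norm
    · rintro s (rfl | rfl | rfl)
      · rw [hconj _ _ (Commute.refl _)]; simp
      · rw [hconj _ _ c01]; simp
      · rw [hconj _ _ c02]; simp
    · rintro s (rfl | rfl | rfl)
      · rw [hconj' _ _ (Commute.refl _)]; simp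
      · rw [hconj' _ _ c01]; simp
      · rw [hconj' _ _ c02]; simp
  · apply V0_norm
    · rintro s (rfl | rfl | rfl)
      · rw [← hz1]; simp
      · rw [← hz2d]; simp
      · rw [hy2]; simp
    · rintro s (rfl | rfl | rfl)
      · rw [hyi0]; simp
      · rw [hyi1]; simp
      · rw [hyi2]; simp

end Cfsg.Agent.Lib.Helper41.Sol3
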