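import Cfsg.Agent.Lib.Helper41.Sol3.Defs
import Cfsg.Agent.Lib.Helper41.Sol3.A2
import Cfsg.Agent.Lib.Helper41.Sol3.A3
import Cfsg.Agent.Lib.Helper41.Sol3.DIH
import Cfsg.Agent.Lib.Helper41.Sol3.U3
import Cfsg.Agent.Lib.Helper41.Sol3.C1
import Cfsg.Agent.Lib.Helper41.Sol3.I1
import Cfsg.Agent.Lib.Helper41.Sol3.S4
import Cfsg.Agent.Lib.Helper41.Sol3.V0

/-! Sol3 farm, piece P1: the solubilizer of an involution has `q (q + 1)` elements. -/

set_option autoImplicit false

namespace Cfsg.Agent.Lib.Helper41.Sol3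

variable {G : Type*} [Group G] [Finite G] {q : ℕ}

theorem sq_of_order_two_P1 {x : G} (hx : orderOf x = 2) : x * x = 1 := by
  rw [← pow_two, ← hx, pow_orderOf_eq_one]

theorem inv_of_sq_P1 {x : G} (hx : x * x = 1) : x⁻¹ = x := inv_eq_of_mul_eq_one_left hx

theorem sq_iff_P1 (y : G) : y * y = 1 ↔ y = 1 ∨ orderOf y = 2 := by
  constructor
  · intro h
    by_cases h1 : y = 1
    · exact Or.inl h1
    · right
      have : Fact (Nat.Prime 2) := ⟨Nat.prime_two⟩
      exact orderOf_eq_prime (by rw [pow_two, h]) h1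
  · rintro (rfl | h)
    · rw [one_mul]
    · exact sq_of_order_two_P1 h

/-- `x y x⁻¹ = y⁻¹` iff `x y` squares to one -/
theorem inv_iff_P1 {x : G} (hx : x * x = 1) (y : G) :
    x * y * x⁻¹ = y⁻¹ ↔ (x * y) * (x * y) = 1 := by
  rw [inv_of_sq_P1 hx]
  constructor
  · intro h
    calc x * y * (x * y) = (x * y * x) * y := by group
      _ = 1 := by rw [h, inv_mul_cancel]
  · intro h
    have : (x * y * x) * y = 1 := by rw [← h]; group
    exact eq_inv_of_mul_eq_one_left this

/-- inverted elements lie with `x` in a proper subgroup -/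
theorem proper_of_inv_P1 (h : SPkg G q) {x : G} (hx : orderOf x = 2) (C : Subgroup G)
    (hC : Nat.card C = q + 1) (hxC : x ∈ C) {y : G} (hy : x * y * x⁻¹ = y⁻¹) :
    ∃ H : Subgroup G, H ≠ ⊤ ∧ x ∈ H ∧ y ∈ H := by
  by_cases h3 : y ^ 3 = 1
  · by_cases h1 : y = 1
    · exact ⟨C, small_ne_top h C hC.le, hxC, h1 ▸ C.one_mem⟩
    · have : Fact (Nat.Prime 3) := ⟨Nat.prime_three⟩
      exact absurd hy (not_inv_23 h hx (orderOf_eq_prime h3 h1))
  · obtain ⟨N, k, t, hk, ⟨e⟩, htN, _, hyt, hN⟩ := h.tor y h3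
    have hy1 : y ≠ 1 := by
      rintro rfl
      exact h3 (one_pow 3)
    have hcard : Nat.card N = 2 * k := by
      rw [Nat.card_congr e.toEquiv, DihedralGroup.nat_card]
    refine ⟨N, small_ne_top h N (by rw [hcard]; omega), ?_, ?_⟩
    · apply hN x y hyt hy1
      rw [hy]
      exact Subgroup.inv_mem _ hyt
    · exact (Subgroup.zpowers_le.mpr htN) hyt

theorem count_two (h : SPkg G q) {x : G} (hx : orderOf x = 2) :
    Nat.card {y : G // Group.IsSolvable ↥(Subgroup.closure ({x, y} : Set G))} = q * (q + 1) := by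
  have hxx : x * x = 1 := sq_of_order_two_P1 hx
  have hxi : x⁻¹ = x := inv_of_sq_P1 hxx
  have hx1 : x ≠ 1 := by
    rintro rfl
    rw [orderOf_one] at hx
    omega
  obtain ⟨C, hCcard, hCmem, hE⟩ := cent_inv h hx
  have hxC : x ∈ C := (hCmem x).mpr rfl
  set Inv : Set G := {y | x * y * x⁻¹ = y⁻¹} with hInv
  set I1 : Set G := {y | y * y = 1} with hI1
  set S4 : Set G := {y | orderOf y = 3 ∧ (x * y) ^ 3 = 1} with hS4
  set E : Set G := {u : G | u ∈ C ∧ u * u = 1} with hEdef
  -- the solubilizer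
  have hsol : {y : G | Group.IsSolvable ↥(Subgroup.closure ({x, y} : Set G))} =
      ((C : Set G) ∪ Inv ∪ I1) ∪ S4 := by
    ext y
    simp only [Set.mem_ofPred_eq, Set.mem_union, SetLike.mem_coe]
    constructor
    · intro hy
      set M : Subgroup G := Subgroup.closure ({x, y} : Set G) with hM
      have hxM : x ∈ M := Subgroup.subset_closure (by simp)
      have hyM : y ∈ M := Subgroup.subset_closure (by simp)
      have hMtop : M ≠ ⊤ := (h.sol M).mp hy
      rcases h.sub M hMtop with hc | ⟨k, ⟨e⟩⟩ | ⟨P, hP⟩ | h12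
      · -- cyclic
        have := (IsCyclic.isMulCommutative (α := M)).is_comm.comm ⟨y, hyM⟩ ⟨x, hxM⟩
        have h2 : y * x = x * y := congrArg Subtype.val this
        exact Or.inl (Or.inl (Or.inl ((hCmem y).mpr h2)))
      · rcases dih_cases k e (⟨x, hxM⟩ : M) (⟨y, hyM⟩ : M) with h1 | ⟨h1, _⟩ | ⟨_, h1⟩ | ⟨_, h1⟩
        · have h2 : x * y = y * x := congrArg Subtype.val h1
          exact Or.inl (Or.inl (Or.inl ((hCmem y).mpr h2.symm)))
        · have h2 : y * y = 1 := congrArg Subtype.val h1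
          exact Or.inl (Or.inr h2)
        · have h2 : x * y * x⁻¹ = y⁻¹ := congrArg Subtype.val h1
          exact Or.inl (Or.inl (Or.inr h2))
        · have h2 : y * y = 1 := congrArg Subtype.val h1
          exact Or.inl (Or.inr h2)
      · exact absurd (bor_odd h P (hP hxM) hxx) hx1
      · have hdvd : ∀ g ∈ M, orderOf g ∣ 12 := by
          intro g hg
          have := orderOf_dvd_natCard (⟨g, hg⟩ : M)
          rwa [Subgroup.orderOf_mk, h12] at this
        rcases order_dvd_twelve h (hdvd y hyM) with h1 | h1 | h1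
        · exact Or.inl (Or.inr ((sq_iff_P1 y).mpr (Or.inl h1)))
        · exact Or.inl (Or.inr ((sq_iff_P1 y).mpr (Or.inr h1)))
        · rcases order_dvd_twelve h (hdvd (x * y) (M.mul_mem hxM hyM)) with h2 | h2 | h2
          · exfalso
            have : y = x := by
              have := eq_inv_of_mul_eq_one_right h2
              rw [this, hxi]
            rw [this, hx] at h1
            omega
          · exact Or.inl (Or.inl (Or.inr ((inv_iff_P1 hxx y).mpr (sq_of_order_two_P1 h2))))
          · refine Or.inr ⟨h1, ?_⟩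
            rw [← h2, pow_orderOf_eq_one]
    · intro hy
      rw [sol_iff h]
      rcases hy with ((hy | hy) | hy) | hy
      · exact ⟨C, small_ne_top h C hCcard.le, hxC, hy⟩
      · exact proper_of_inv_P1 h hx C hCcard hxC hy
      · have hyi : y⁻¹ = y := inv_of_sq_P1 hy
        have hu : x * (x * y) * x⁻¹ = (x * y)⁻¹ := by
          rw [mul_inv_rev, hyi, hxi, ← mul_assoc, hxx, one_mul]
        obtain ⟨H, hH, hxH, huH⟩ := proper_of_inv_P1 h hx C hCcard hxC hu
        refine ⟨H, hH, hxH, ?_⟩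
        have : y = x⁻¹ * (x * y) := by group
        rw [this]
        exact H.mul_mem (H.inv_mem hxH) huH
      · exact four_group h hy.1 hx hy.2
  -- the counts
  have cI1 : I1.ncard = 1 + {u : G | orderOf u = 2}.ncard := by
    have e : I1 = {1} ∪ {u : G | orderOf u = 2} := by
      ext y
      simp only [hI1, Set.mem_ofPred_eq, Set.mem_union, Set.mem_singleton_iff]
      exact sq_iff_P1 y
    rw [e, Set.ncard_union_eq, Set.ncard_singleton]
    rw [Set.disjoint_singleton_left]
    simp
  have cInv : Inv.ncard = I1.ncard := by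
    have e : I1 = (fun y => x * y) '' Inv := by
      ext u
      simp only [hI1, hInv, Set.mem_ofPred_eq, Set.mem_image]
      constructor
      · intro hu
        refine ⟨x⁻¹ * u, ?_, by group⟩
        rw [inv_iff_P1 hxx]
        have : x * (x⁻¹ * u) = u := by group
        rw [this, hu]
      · rintro ⟨y, hy, rfl⟩
        exact (inv_iff_P1 hxx y).mp hy
    rw [e, Set.ncard_image_of_injective _ (mul_right_injective x)]
  have i1 : (C : Set G) ∩ Inv = E := by
    ext y
    simp only [hInv, hEdef, Set.mem_inter_iff, SetLike.mem_coe, Set.mem_ofPred_eq]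
    constructor
    · rintro ⟨hyC, hy⟩
      refine ⟨hyC, ?_⟩
      have hc := (hCmem y).mp hyC
      rw [← hc, mul_inv_cancel_right] at hy
      calc y * y = y * y⁻¹ := by rw [← hy]
        _ = 1 := mul_inv_cancel y
    · rintro ⟨hyC, hy⟩
      refine ⟨hyC, ?_⟩
      have hc := (hCmem y).mp hyC
      rw [← hc, mul_inv_cancel_right, inv_of_sq_P1 hy]
  have i2 : (C : Set G) ∩ I1 = E := rfl
  have i3 : Inv ∩ I1 = E := by
    ext y
    simp only [hInv, hI1, hEdef, Set.mem_inter_iff, Set.mem_ofPred_eq]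
    constructor
    · rintro ⟨hy, hyy⟩
      refine ⟨?_, hyy⟩
      rw [hCmem]
      rw [inv_of_sq_P1 hyy, mul_inv_eq_iff_eq_mul] at hy
      exact hy.symm
    · rintro ⟨hyC, hyy⟩
      refine ⟨?_, hyy⟩
      have hc := (hCmem y).mp hyC
      rw [← hc, mul_inv_cancel_right, inv_of_sq_P1 hyy]
  have hU := ncard_union_three (C : Set G) Inv I1 E i1 i2 i3
  have cC : (C : Set G).ncard = q + 1 := by
    rw [← hCcard]
    exact (Nat.card_coe_set_eq (C : Set G)).symm
  have hdisj : Disjoint ((C : Set G) ∪ Inv ∪ I1) S4 := by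
    rw [Set.disjoint_left]
    rintro y ((hy | hy) | hy) ⟨h3, _⟩
    · exact not_comm_23 h hx h3 ((hCmem y).mp hy).symm
    · exact not_inv_23 h hx h3 hy
    · rcases (sq_iff_P1 y).mp hy with rfl | h2
      · rw [orderOf_one] at h3
        omega
      · omega
  have cS4 : S4.ncard = 2 * (q + 1) := card_S4 h hx
  have cinv := card_inv h
  have hq8 := h.q8
  have hcard : Nat.card {y : G // Group.IsSolvable ↥(Subgroup.closure ({x, y} : Set G))} =
      {y : G | Group.IsSolvable ↥(Subgroup.closure ({x, y} : Set G))}.ncard :=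
    Nat.card_coe_set_eq _
  rw [hcard, hsol, Set.ncard_union_eq hdisj, cS4]
  rw [hE, cC, cInv, cI1] at hU
  have e1 : q * (q + 1) = q * (q - 1) + 2 * q := by
    obtain ⟨r, rfl⟩ : ∃ r, q = r + 1 := ⟨q - 1, by omega⟩
    rw [Nat.add_sub_cancel]
    ring
  rw [e1]
  generalize q * (q - 1) = A at *
  omega

end Cfsg.Agent.Lib.Helper41.Sol3
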