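import Cfsg.Agent.Lib.Helper41.Sol3.Defs
import Cfsg.Agent.Lib.Helper41.Sol3.A1
import Cfsg.Agent.Lib.Helper41.Sol3.A2
import Cfsg.Agent.Lib.Helper41.Sol3.A3
import Cfsg.Agent.Lib.Helper41.Sol3.DIH
import Cfsg.Agent.Lib.Helper41.Sol3.V0
import Cfsg.Agent.Lib.Helper41.Sol3.M12

/-! Sol3 farm, piece P2: the solubilizer of an element of order three. -/

set_option autoImplicit false

namespace Cfsg.Agent.Lib.Helper41.Sol3

variable {G : Type*} [Group G] [Finite G] {q : ℕ}

/-- the map `(z, i) ↦ z x^i` is injective on involutions -/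
theorem inj_P2 (h : SPkg G q) {x : G} (hx : orderOf x = 3) {z z' : G} (hz : orderOf z = 2)
    (hz' : orderOf z' = 2) {i j : ℕ} (hi : i < 3) (hj : j < 3) (he : z * x ^ i = z' * x ^ j) :
    z = z' ∧ i = j := by
  have hzz : z * z = 1 := by rw [← pow_two, ← hz, pow_orderOf_eq_one]
  have hzz' : z' * z' = 1 := by rw [← pow_two, ← hz', pow_orderOf_eq_one]
  have hzi : z⁻¹ = z := inv_eq_of_mul_eq_one_left hzz
  have hzi' : z'⁻¹ = z' := inv_eq_of_mul_eq_one_left hzz'
  have hx3 : x ^ 3 = 1 := by rw [← hx, pow_orderOf_eq_one]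
  have hw : z' * z = x ^ j * (x ^ i)⁻¹ := by
    rw [eq_mul_inv_iff_mul_eq, mul_assoc, he, ← mul_assoc, hzz', one_mul]
  have hw3 : (z' * z) ^ 3 = 1 := by
    rw [hw, ((Commute.refl x).pow_pow j i).inv_right.mul_pow, inv_pow, ← pow_mul, ← pow_mul,
      mul_comm j, mul_comm i, pow_mul, pow_mul, hx3, one_pow, one_pow, inv_one, one_mul]
  have hw1 : z' * z = 1 := by
    by_contra hne
    have : Fact (Nat.Prime 3) := ⟨Nat.prime_three⟩
    have ho : orderOf (z' * z) = 3 := orderOf_eq_prime hw3 hne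
    apply not_inv_23 h hz' ho
    rw [mul_inv_rev, hzi, hzi', ← mul_assoc, hzz', one_mul]
  have hzeq : z = z' := by
    have := eq_inv_of_mul_eq_one_right hw1
    rw [this, hzi']
  refine ⟨hzeq, ?_⟩
  rw [hzeq] at he
  have h2 : x ^ i = x ^ j := mul_left_cancel he
  exact pow_injOn_Iio_orderOf (by rw [hx]; exact hi) (by rw [hx]; exact hj) h2

theorem count_three (h : SPkg G q) {x : G} (hx : orderOf x = 3) :
    2 * Nat.card {y : G // Group.IsSolvable ↥(Subgroup.closure ({x, y} : Set G))} = q * (q + 5) := by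
  have hq27 := h.q27
  have hx3 : x ^ 3 = 1 := by rw [← hx, pow_orderOf_eq_one]
  have hx1 : x ≠ 1 := by
    rintro rfl
    rw [orderOf_one] at hx
    omega
  have hxx : x * x ≠ 1 := by
    intro hc
    apply hx1
    have : x ^ 3 = x * x * x := by rw [pow_succ, pow_two]
    rw [this, hc, one_mul] at hx3
    exact hx3
  obtain ⟨P, hxP⟩ := exists_sylow hx3
  have hPN : (P : Subgroup G) ≤ Subgroup.normalizer ((P : Subgroup G) : Set G) :=
    Subgroup.le_normalizer
  set Z : Set G := {z : G | orderOf z = 2 ∧ (z * x) ^ 3 = 1} with hZ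
  let f : G × Fin 3 → G := fun p => p.1 * x ^ (p.2 : ℕ)
  set R : Set G := f '' (Z ×ˢ Set.univ) with hR
  have hsol : {y : G | Group.IsSolvable ↥(Subgroup.closure ({x, y} : Set G))} =
      (Subgroup.normalizer ((P : Subgroup G) : Set G) : Set G) ∪ R := by
    ext y
    simp only [Set.mem_ofPred_eq, Set.mem_union, SetLike.mem_coe]
    constructor
    · intro hy
      set M : Subgroup G := Subgroup.closure ({x, y} : Set G) with hM
      have hxM : x ∈ M := Subgroup.subset_closure (by simp)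
      have hyM : y ∈ M := Subgroup.subset_closure (by simp)
      have hMtop : M ≠ ⊤ := (h.sol M).mp hy
      rcases h.sub M hMtop with hc | ⟨k', ⟨e'⟩⟩ | ⟨P', hP'⟩ | h12'
      · have := (IsCyclic.isMulCommutative (α := M)).is_comm.comm ⟨y, hyM⟩ ⟨x, hxM⟩
        have h2 : y * x = x * y := congrArg Subtype.val this
        exact Or.inl (hPN (cent_mem h P hxP hx1 h2))
      · rcases dih_cases k' e' (⟨x, hxM⟩ : M) (⟨y, hyM⟩ : M) with h1 | ⟨h0, h1⟩ | ⟨h1, _⟩ | ⟨h1, _⟩
        · have h2 : x * y = y * x := congrArg Subtype.val h1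
          exact Or.inl (hPN (cent_mem h P hxP hx1 h2.symm))
        · have h2 : y * x * y⁻¹ = x⁻¹ := congrArg Subtype.val h1
          have h3 : y * y = 1 := congrArg Subtype.val h0
          by_cases hy1 : y = 1
          · rw [hy1]
            exact Or.inl (Subgroup.one_mem _)
          · have : Fact (Nat.Prime 2) := ⟨Nat.prime_two⟩
            exact absurd h2 (not_inv_23 h (orderOf_eq_prime (by rw [pow_two, h3]) hy1) hx)
        · exact absurd (congrArg Subtype.val h1) hxx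
        · exact absurd (congrArg Subtype.val h1) hxx
      · have hxP' : x ∈ P' := bor_three P' (hP' hxM) hx3
        have := sylow_unique h P P' hxP hxP' hx1
        rw [this] at hP'
        exact Or.inl (hP' hyM)
      · rcases m12 h M h12' hxM hx hyM with h1 | ⟨z, i, hz, hzx, hi, rfl⟩
        · exact Or.inl (hPN ((Subgroup.zpowers_le.2 hxP) h1))
        · exact Or.inr ⟨(z, ⟨i, hi⟩), ⟨⟨hz, hzx⟩, Set.mem_univ _⟩, rfl⟩
    · intro hy
      rw [sol_iff h]
      rcases hy with hy | ⟨⟨z, i⟩, ⟨⟨hz, hzx⟩, _⟩, rfl⟩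
      · exact ⟨_, bor_ne_top h P, hPN hxP, hy⟩
      · obtain ⟨H, hH, hzH, hxH⟩ := four_group h hx hz hzx
        exact ⟨H, hH, hxH, H.mul_mem hzH (H.pow_mem hxH _)⟩
  have hinj : Set.InjOn f (Z ×ˢ Set.univ) := by
    rintro ⟨z, i⟩ ⟨⟨hz, _⟩, _⟩ ⟨z', j⟩ ⟨⟨hz', _⟩, _⟩ he
    obtain ⟨h1, h2⟩ := inj_P2 h hx hz hz' i.2 j.2 he
    exact Prod.ext h1 (Fin.ext h2)
  have cR : R.ncard = q * 3 := by
    rw [hR, Set.InjOn.ncard_image hinj, Set.ncard_prod, h.zc x hx, Set.ncard_univ]
    simp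
  have hdisj : Disjoint (Subgroup.normalizer ((P : Subgroup G) : Set G) : Set G) R := by
    rw [Set.disjoint_left]
    rintro _ hy ⟨⟨z, i⟩, ⟨⟨hz, _⟩, _⟩, rfl⟩
    have hzN : z ∈ Subgroup.normalizer ((P : Subgroup G) : Set G) := by
      have h1 := Subgroup.mul_mem _ hy (Subgroup.inv_mem _ (Subgroup.pow_mem _ (hPN hxP) (i : ℕ)))
      simpa [f] using h1
    have hzz : z * z = 1 := by rw [← pow_two, ← hz, pow_orderOf_eq_one]
    have := bor_odd h P hzN hzz
    rw [this, orderOf_one] at hz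
    omega
  have c1 : 2 * (Subgroup.normalizer ((P : Subgroup G) : Set G) : Set G).ncard = q * (q - 1) := by
    rw [← h.borN P]
    congr 1
  have hcard : Nat.card {y : G // Group.IsSolvable ↥(Subgroup.closure ({x, y} : Set G))} =
      {y : G | Group.IsSolvable ↥(Subgroup.closure ({x, y} : Set G))}.ncard :=
    Nat.card_coe_set_eq _
  rw [hcard, hsol, Set.ncard_union_eq hdisj, cR, mul_add, c1]
  obtain ⟨r, rfl⟩ : ∃ r, q = r + 1 := ⟨q - 1, by omega⟩
  rw [Nat.add_sub_cancel]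
  ring

end Cfsg.Agent.Lib.Helper41.Sol3
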