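import Cfsg.Agent.Lib.Helper41.Sol3.Defs
import Cfsg.Agent.Lib.Helper41.Sol3.A2
import Cfsg.Agent.Lib.Helper41.Sol3.A3
import Cfsg.Agent.Lib.Helper41.Sol3.DIH
import Cfsg.Agent.Lib.Helper41.Sol3.U3
import Cfsg.Agent.Lib.Helper41.Sol3.F1
import Cfsg.Agent.Lib.Helper41.Sol3.F2

/-! Sol3 farm, piece P3: the solubilizer of an element of a split torus has `q (q - 1)` elements. -/

set_option autoImplicit false

namespace Cfsg.Agent.Lib.Helper41.Sol3

variable {G : Type*} [Group G] [Finite G] {q : ℕ}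

theorem sq_cases_P3 {y : G} (h : y * y = 1) : y = 1 ∨ orderOf y = 2 := by
  by_cases h1 : y = 1
  · exact Or.inl h1
  · right
    have : Fact (Nat.Prime 2) := ⟨Nat.prime_two⟩
    exact orderOf_eq_prime (by rw [pow_two, h]) h1

/-- transport of `dih_mem_or` -/
theorem mem_or_sq_P3 {N : Subgroup G} {k : ℕ} (hk3 : 3 ≤ k) (e : N ≃* DihedralGroup k) {t : G}
    (htN : t ∈ N) (ht : orderOf t = k) {g : G} (hg : g ∈ N) :
    g ∈ Subgroup.zpowers t ∨ g * g = 1 := by
  have hto : orderOf (e ⟨t, htN⟩) = k := by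
    rw [MulEquiv.orderOf_eq, Subgroup.orderOf_mk, ht]
  rcases dih_mem_or k hk3 (e ⟨t, htN⟩) (e ⟨g, hg⟩) hto with h1 | h1
  · left
    obtain ⟨n, hn⟩ := Subgroup.mem_zpowers_iff.mp h1
    rw [← map_zpow] at hn
    have := e.injective hn
    refine Subgroup.mem_zpowers_iff.mpr ⟨n, ?_⟩
    have h2 := congrArg Subtype.val this
    simpa using h2
  · right
    rw [← map_mul, ← map_one e] at h1
    exact congrArg Subtype.val (e.injective h1)

theorem count_minus (h : SPkg G q) {x : G} (hx1 : x ≠ 1) (hx2 : orderOf x ≠ 2)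
    (hd : orderOf x ∣ q - 1) :
    Nat.card {y : G // Group.IsSolvable ↥(Subgroup.closure ({x, y} : Set G))} = q * (q - 1) := by
  have hq27 := h.q27
  have hq3 := h.q3
  have hxo1 : orderOf x ≠ 1 := fun h0 => hx1 (orderOf_eq_one_iff.mp h0)
  have hx3 : x ^ 3 ≠ 1 := by
    intro h3
    have h4 := orderOf_dvd_of_pow_eq_one h3
    rcases (Nat.dvd_prime Nat.prime_three).mp h4 with h5 | h5
    · exact hxo1 h5
    · rw [h5] at hd
      omega
  have hxx : x * x ≠ 1 := by
    intro h0
    rcases sq_cases_P3 h0 with h1 | h1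
    · exact hx1 h1
    · exact hx2 h1
  obtain ⟨N, k, t, hk, ⟨e⟩, htN, hto, hxt, hN⟩ := h.tor x hx3
  have hxk : orderOf x ∣ k := by
    rw [← hto]
    exact orderOf_dvd_of_mem_zpowers hxt
  have hk' : 2 * k = q - 1 := by
    rcases hk with hk | hk
    · exact hk
    · exfalso
      have d1 : orderOf x ∣ q + 1 := by
        rw [← hk]
        exact Dvd.dvd.mul_left hxk 2
      have d2 : orderOf x ∣ (q + 1) - (q - 1) := Nat.dvd_sub d1 hd
      have e2 : (q + 1) - (q - 1) = 2 := by omega
      rw [e2] at d2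
      rcases (Nat.dvd_prime Nat.prime_two).mp d2 with h5 | h5
      · exact hxo1 h5
      · exact hx2 h5
  have ht2 : 2 * orderOf t = q - 1 := by rw [hto]; exact hk'
  have hk3 : 3 ≤ k := by omega
  obtain ⟨P₁, P₂, hne, ht1, ht2', hP⟩ := two_fixed h ht2 hxt hx1
  set B₁ : Subgroup G := Subgroup.normalizer ((P₁ : Subgroup G) : Set G) with hB1
  set B₂ : Subgroup G := Subgroup.normalizer ((P₂ : Subgroup G) : Set G) with hB2
  have hTN : Subgroup.zpowers t ≤ N := Subgroup.zpowers_le.mpr htN
  have hT1 : Subgroup.zpowers t ≤ B₁ := Subgroup.zpowers_le.mpr ht1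
  have hT2 : Subgroup.zpowers t ≤ B₂ := Subgroup.zpowers_le.mpr ht2'
  have hcardN : Nat.card N = 2 * k := by
    rw [Nat.card_congr e.toEquiv, DihedralGroup.nat_card]
  have hsol : {y : G | Group.IsSolvable ↥(Subgroup.closure ({x, y} : Set G))} =
      (N : Set G) ∪ (B₁ : Set G) ∪ (B₂ : Set G) := by
    ext y
    simp only [Set.mem_ofPred_eq, Set.mem_union, SetLike.mem_coe]
    constructor
    · intro hy
      set M : Subgroup G := Subgroup.closure ({x, y} : Set G) with hM
      have hxM : x ∈ M := Subgroup.subset_closure (by simp)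
      have hyM : y ∈ M := Subgroup.subset_closure (by simp)
      have hMtop : M ≠ ⊤ := (h.sol M).mp hy
      have hcomm : y * x = x * y → y ∈ N := by
        intro hc
        apply hN y x hxt hx1
        rw [hc, mul_inv_cancel_right]
        exact hxt
      rcases h.sub M hMtop with hc | ⟨k', ⟨e'⟩⟩ | ⟨P, hPM⟩ | h12
      · have := (IsCyclic.isMulCommutative (α := M)).is_comm.comm ⟨y, hyM⟩ ⟨x, hxM⟩
        exact Or.inl (Or.inl (hcomm (congrArg Subtype.val this)))
      · rcases dih_cases k' e' (⟨x, hxM⟩ : M) (⟨y, hyM⟩ : M) with h1 | ⟨_, h1⟩ | ⟨h1, _⟩ | ⟨h1, _⟩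
        · have h2 : x * y = y * x := congrArg Subtype.val h1
          exact Or.inl (Or.inl (hcomm h2.symm))
        · have h2 : y * x * y⁻¹ = x⁻¹ := congrArg Subtype.val h1
          refine Or.inl (Or.inl (hN y x hxt hx1 ?_))
          rw [h2]
          exact Subgroup.inv_mem _ hxt
        · exact absurd (congrArg Subtype.val h1) hxx
        · exact absurd (congrArg Subtype.val h1) hxx
      · rcases hP P (hPM hxM) with rfl | rfl
        · exact Or.inl (Or.inr (hPM hyM))
        · exact Or.inr (hPM hyM)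
      · exfalso
        have hdx : orderOf x ∣ 12 := by
          have := orderOf_dvd_natCard (⟨x, hxM⟩ : M)
          rwa [Subgroup.orderOf_mk, h12] at this
        rcases order_dvd_twelve h hdx with h1 | h1 | h1
        · exact hx1 h1
        · exact hx2 h1
        · apply hx3
          rw [← h1, pow_orderOf_eq_one]
    · intro hy
      rw [sol_iff h]
      rcases hy with (hy | hy) | hy
      · exact ⟨N, small_ne_top h N (by rw [hcardN]; omega), hTN hxt, hy⟩
      · exact ⟨B₁, bor_ne_top h P₁, hT1 hxt, hy⟩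
      · exact ⟨B₂, bor_ne_top h P₂, hT2 hxt, hy⟩
  have i1 : (N : Set G) ∩ (B₁ : Set G) = (Subgroup.zpowers t : Set G) := by
    ext g
    simp only [Set.mem_inter_iff, SetLike.mem_coe]
    constructor
    · rintro ⟨hgN, hgB⟩
      rcases mem_or_sq_P3 hk3 e htN hto hgN with h1 | h1
      · exact h1
      · rw [bor_odd h P₁ hgB h1]
        exact Subgroup.one_mem _
    · intro hg
      exact ⟨hTN hg, hT1 hg⟩
  have i2 : (N : Set G) ∩ (B₂ : Set G) = (Subgroup.zpowers t : Set G) := by
    ext g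
    simp only [Set.mem_inter_iff, SetLike.mem_coe]
    constructor
    · rintro ⟨hgN, hgB⟩
      rcases mem_or_sq_P3 hk3 e htN hto hgN with h1 | h1
      · exact h1
      · rw [bor_odd h P₂ hgB h1]
        exact Subgroup.one_mem _
    · intro hg
      exact ⟨hTN hg, hT2 hg⟩
  have i3 : (B₁ : Set G) ∩ (B₂ : Set G) = (Subgroup.zpowers t : Set G) := by
    ext g
    simp only [Set.mem_inter_iff, SetLike.mem_coe]
    constructor
    · rintro ⟨hg1, hg2⟩
      exact bor_inter h P₁ P₂ hne ht2 ht1 ht2' hg1 hg2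
    · intro hg
      exact ⟨hT1 hg, hT2 hg⟩
  have hU := ncard_union_three (N : Set G) (B₁ : Set G) (B₂ : Set G) _ i1 i2 i3
  have cN : (N : Set G).ncard = 2 * k := by
    rw [← hcardN]
    exact (Nat.card_coe_set_eq (N : Set G)).symm
  have cT : (Subgroup.zpowers t : Set G).ncard = k := by
    rw [← hto, ← Nat.card_zpowers]
    exact (Nat.card_coe_set_eq (Subgroup.zpowers t : Set G)).symm
  have c1 : 2 * (B₁ : Set G).ncard = q * (q - 1) := by
    rw [← h.borN P₁]
    congr 1
  have c2 : 2 * (B₂ : Set G).ncard = q * (q - 1) := by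
    rw [← h.borN P₂]
    congr 1
  have hcard : Nat.card {y : G // Group.IsSolvable ↥(Subgroup.closure ({x, y} : Set G))} =
      {y : G | Group.IsSolvable ↥(Subgroup.closure ({x, y} : Set G))}.ncard :=
    Nat.card_coe_set_eq _
  rw [hcard, hsol]
  rw [cN, cT] at hU
  generalize q * (q - 1) = A at *
  omega

end Cfsg.Agent.Lib.Helper41.Sol3
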