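import Cfsg.Agent.Lib.Helper41.Sol3.Defs
import Cfsg.Agent.Lib.Helper41.Sol3.A3
import Cfsg.Agent.Lib.Helper41.Sol3.DIH

/-! Sol3 farm, piece P4: the solubilizer of an element of a nonsplit torus has `q + 1` elements. -/

set_option autoImplicit false

namespace Cfsg.Agent.Lib.Helper41.Sol3

variable {G : Type*} [Group G] [Finite G] {q : ℕ}

omit [Finite G] in
theorem sq_cases_P4 {y : G} (h : y * y = 1) : y = 1 ∨ orderOf y = 2 := by
  by_cases h1 : y = 1
  · exact Or.inl h1
  · right
    have : Fact (Nat.Prime 2) := ⟨Nat.prime_two⟩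
    exact orderOf_eq_prime (by rw [pow_two, h]) h1

theorem count_plus (h : SPkg G q) {x : G} (hx1 : x ≠ 1) (hx2 : orderOf x ≠ 2)
    (hd : orderOf x ∣ q + 1) :
    Nat.card {y : G // Group.IsSolvable ↥(Subgroup.closure ({x, y} : Set G))} = q + 1 := by
  have hq27 := h.q27
  have hq3 := h.q3
  have hxo1 : orderOf x ≠ 1 := fun h0 => hx1 (orderOf_eq_one_iff.mp h0)
  have hx3 : x ^ 3 ≠ 1 := by
    intro h3
    have h4 := orderOf_dvd_of_pow_eq_one h3
    rcases (Nat.dvd_prime Nat.prime_three).mp h4 with h5 | h5
    · exact hxo1 h5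
    · rw [h5] at hd
      omega
  have hxx : x * x ≠ 1 := by
    intro h0
    rcases sq_cases_P4 h0 with h1 | h1
    · exact hx1 h1
    · exact hx2 h1
  have hnot : ¬ orderOf x ∣ q - 1 := by
    intro d1
    have d2 : orderOf x ∣ (q + 1) - (q - 1) := Nat.dvd_sub hd d1
    have e2 : (q + 1) - (q - 1) = 2 := by omega
    rw [e2] at d2
    rcases (Nat.dvd_prime Nat.prime_two).mp d2 with h5 | h5
    · exact hxo1 h5
    · exact hx2 h5
  obtain ⟨N, k, t, hk, ⟨e⟩, htN, hto, hxt, hN⟩ := h.tor x hx3
  have hxk : orderOf x ∣ k := by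
    rw [← hto]
    exact orderOf_dvd_of_mem_zpowers hxt
  have hk' : 2 * k = q + 1 := by
    rcases hk with hk | hk
    · exfalso
      apply hnot
      rw [← hk]
      exact Dvd.dvd.mul_left hxk 2
    · exact hk
  have hTN : Subgroup.zpowers t ≤ N := Subgroup.zpowers_le.mpr htN
  have hcardN : Nat.card N = 2 * k := by
    rw [Nat.card_congr e.toEquiv, DihedralGroup.nat_card]
  have hsol : {y : G | Group.IsSolvable ↥(Subgroup.closure ({x, y} : Set G))} = (N : Set G) := by
    ext y
    simp only [Set.mem_ofPred_eq, SetLike.mem_coe]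
    constructor
    · intro hy
      set M : Subgroup G := Subgroup.closure ({x, y} : Set G) with hM
      have hxM : x ∈ M := Subgroup.subset_closure (by simp)
      have hyM : y ∈ M := Subgroup.subset_closure (by simp)
      have hMtop : M ≠ ⊤ := (h.sol M).mp hy
      have hcomm : y * x = x * y → y ∈ N := by
        intro hc
        apply hN y x hxt hx1
        rw [hc, mul_inv_cancel_right]
        exact hxt
      rcases h.sub M hMtop with hc | ⟨k', ⟨e'⟩⟩ | ⟨P, hPM⟩ | h12
      · have := (IsCyclic.isMulCommutative (α := M)).is_comm.comm ⟨y, hyM⟩ ⟨x, hxM⟩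
        exact hcomm (congrArg Subtype.val this)
      · rcases dih_cases k' e' (⟨x, hxM⟩ : M) (⟨y, hyM⟩ : M) with h1 | ⟨_, h1⟩ | ⟨h1, _⟩ | ⟨h1, _⟩
        · have h2 : x * y = y * x := congrArg Subtype.val h1
          exact hcomm h2.symm
        · have h2 : y * x * y⁻¹ = x⁻¹ := congrArg Subtype.val h1
          refine hN y x hxt hx1 ?_
          rw [h2]
          exact Subgroup.inv_mem _ hxt
        · exact absurd (congrArg Subtype.val h1) hxx
        · exact absurd (congrArg Subtype.val h1) hxx
      · exfalso
        apply hnot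
        have hxB := hPM hxM
        have d1 : orderOf x ∣ Nat.card (Subgroup.normalizer ((P : Subgroup G) : Set G)) := by
          have := orderOf_dvd_natCard
            (⟨x, hxB⟩ : Subgroup.normalizer ((P : Subgroup G) : Set G))
          rwa [Subgroup.orderOf_mk] at this
        have d2 : orderOf x ∣ q * (q - 1) := by
          rw [← h.borN P]
          exact Dvd.dvd.mul_left d1 2
        have hcop : Nat.Coprime (orderOf x) q := by
          apply Nat.Coprime.coprime_dvd_left hd
          simp
        exact hcop.dvd_of_dvd_mul_left d2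
      · exfalso
        have hdx : orderOf x ∣ 12 := by
          have := orderOf_dvd_natCard (⟨x, hxM⟩ : M)
          rwa [Subgroup.orderOf_mk, h12] at this
        rcases order_dvd_twelve h hdx with h1 | h1 | h1
        · exact hx1 h1
        · exact hx2 h1
        · apply hx3
          rw [← h1, pow_orderOf_eq_one]
    · intro hy
      rw [sol_iff h]
      exact ⟨N, small_ne_top h N (by rw [hcardN]; omega), hTN hxt, hy⟩
  have hcard : Nat.card {y : G // Group.IsSolvable ↥(Subgroup.closure ({x, y} : Set G))} =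
      {y : G | Group.IsSolvable ↥(Subgroup.closure ({x, y} : Set G))}.ncard :=
    Nat.card_coe_set_eq _
  have cN : (N : Set G).ncard = 2 * k := by
    rw [← hcardN]
    exact (Nat.card_coe_set_eq (N : Set G)).symm
  rw [hcard, hsol, cN, hk']

end Cfsg.Agent.Lib.Helper41.Sol3
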