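import Cfsg.Agent.Lib.Helper41.Bin.PSL
import Cfsg.Agent.Lib.Helper41.Sol3.Defs

/-!
# S2258: the structure constant `#{z involution : (z y)^3 = 1} = q` in `PSL₂(q)`, `q` a power of 3
-/

set_option autoImplicit false
set_option linter.unusedVariables false

namespace Cfsg.Agent.Lib.Helper41.Sol3

open Cfsg.Agent.Lib.Helper41.Bin Matrix

variable {F : Type*} [Field F]

local notation "SL2" => Matrix.SpecialLinearGroup (Fin 2) F
local notation "PSL2" => Matrix.ProjectiveSpecialLinearGroup (Fin 2) F

theorem tr2_cube (W : SL2) : tr2 (W * W * W) = tr2 W ^ 3 - 3 * tr2 W := by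
  have h1 := tr2_mul_add (W * W) W
  have h2 := tr2_mul_add W W
  rw [mul_inv_cancel_right] at h1
  rw [mul_inv_cancel, tr2_one] at h2
  linear_combination h1 + tr2 W * h2

theorem tr2_negOne : tr2 (negOne : SL2) = -2 := by
  simp only [tr2, negOne, mkS00, mkS11]
  ring

theorem three_zero [CharP F 3] : (3 : F) = 0 := by
  have := CharP.cast_eq_zero F 3
  exact_mod_cast this

theorem two_ne [CharP F 3] : (2 : F) ≠ 0 := by
  intro h
  have h3 : (3 : F) = 0 := three_zero
  have : (1 : F) = 0 := by linear_combination h3 - h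
  exact one_ne_zero this

theorem cube_iff [CharP F 3] (W : SL2) : (pr F W) ^ 3 = 1 ↔ tr2 W = 2 ∨ tr2 W = -2 := by
  have h3 : (3 : F) = 0 := three_zero
  constructor
  · intro h
    rw [← map_pow, pr_eq_one_iff] at h
    have hc := tr2_cube W
    have hW : W ^ 3 = W * W * W := by rw [pow_succ, pow_two]
    rcases h with h | h
    · left
      rw [← hW, h, tr2_one] at hc
      have : (tr2 W - 2) ^ 3 = 0 := by
        linear_combination -hc + (-2 * tr2 W ^ 2 + 5 * tr2 W - 2) * h3
      exact sub_eq_zero.1 (pow_eq_zero_iff (by norm_num) |>.1 this)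
    · right
      rw [← hW, h, tr2_negOne] at hc
      have : (tr2 W + 2) ^ 3 = 0 := by
        linear_combination -hc + (2 * tr2 W ^ 2 + 5 * tr2 W + 2) * h3
      have := pow_eq_zero_iff (by norm_num) |>.1 this
      linear_combination this
  · rintro (h | h)
    · rw [← map_pow, pow_char_of_tr2_two 3 h, map_one]
    · have h' : tr2 (negOne * W) = 2 := by rw [tr2_negOne_mul, h]; ring
      have : pr F (negOne * W) = pr F W := by rw [map_mul, pr_negOne, one_mul]
      rw [← this, ← map_pow, pow_char_of_tr2_two 3 h', map_one]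

/-- the involutions `z` with `(z * u(s))^3 = 1`, parametrised by `F` -/
noncomputable def zf (s : F) (hs : s ≠ 0) (h2 : (2 : F) ≠ 0) (a : F) : SL2 :=
  mkS a (-(1 + a ^ 2) * (s / 2)) (2 / s) (-a) (by field_simp; ring)

theorem count_uu [Fintype F] [CharP F 3] (s : F) (hs : s ≠ 0) :
    {z : PSL2 | orderOf z = 2 ∧ (z * pr F (uu s)) ^ 3 = 1}.ncard = Fintype.card F := by
  have h2 : (2 : F) ≠ 0 := two_ne
  have hrange : {z : PSL2 | orderOf z = 2 ∧ (z * pr F (uu s)) ^ 3 = 1}
      = Set.range (fun a : F => pr F (zf s hs h2 a)) := by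
    ext z
    constructor
    · rintro ⟨hz2, hz3⟩
      obtain ⟨Z, rfl⟩ := pr_surj z
      have ht := tr2_zero_of_invol h2 Z hz2
      rw [← map_mul, cube_iff] at hz3
      have htr : tr2 (Z * uu s) = Z 1 0 * s := by
        simp only [tr2, mul00, mul11, uu, mkS00, mkS01, mkS10, mkS11] at ht ⊢
        linear_combination ht
      rw [htr] at hz3
      have hd := det_eq Z
      have h11 : Z 1 1 = -Z 0 0 := by
        simp only [tr2] at ht
        linear_combination ht
      rcases hz3 with h | h
      · refine ⟨Z 0 0, ?_⟩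
        show pr F (zf s hs h2 (Z 0 0)) = pr F Z
        congr 1
        have h10 : Z 1 0 = 2 / s := by field_simp; exact h
        apply sl2_ext <;> simp only [zf, mkS00, mkS01, mkS10, mkS11]
        · rw [h11, h10] at hd
          field_simp
          field_simp at hd
          linear_combination hd
        · exact h10.symm
        · exact h11.symm
      · refine ⟨-Z 0 0, ?_⟩
        show pr F (zf s hs h2 (-Z 0 0)) = pr F Z
        rw [pr_eq_iff]
        right
        have h10 : Z 1 0 = -(2 / s) := by field_simp; exact h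
        apply sl2_ext <;> simp only [zf, mkS00, mkS01, mkS10, mkS11, mul00, mul01, mul10, mul11, negOne]
        · ring
        · rw [h11, h10] at hd
          field_simp
          field_simp at hd
          linear_combination hd
        · rw [h10]; ring
        · rw [h11]; ring
    · rintro ⟨a, rfl⟩
      refine ⟨orderOf_pr_of_tr2_zero h2 ?_, ?_⟩
      · simp only [tr2, zf, mkS00, mkS11]
        ring
      · show (pr F (zf s hs h2 a) * pr F (uu s)) ^ 3 = 1
        rw [← map_mul, cube_iff]
        left
        simp only [tr2, mul00, mul11, uu, zf, mkS00, mkS01, mkS10, mkS11]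
        field_simp
        ring
  rw [hrange, Set.ncard_range_of_injective, Nat.card_eq_fintype_card]
  intro a b hab
  have hab' : pr F (zf s hs h2 a) = pr F (zf s hs h2 b) := hab
  rw [pr_eq_iff] at hab'
  rcases hab' with h | h
  · have := congrArg (fun M : SL2 => M 0 0) h
    simpa only [zf, mkS00] using this
  · exfalso
    have := congrArg (fun M : SL2 => M 1 0) h
    simp only [zf, mkS00, mkS01, mkS10, mkS11, mul10, negOne] at this
    have h4 : (2 : F) / s = 0 := by
      have : 2 * ((2 : F) / s) = 0 := by linear_combination this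
      exact (mul_eq_zero.1 this).resolve_left h2
    rcases div_eq_zero_iff.1 h4 with h | h
    · exact h2 h
    · exact hs h

theorem zc_psl [Fintype F] [CharP F 3] (y : PSL2) (hy : orderOf y = 3) :
    {z : PSL2 | orderOf z = 2 ∧ (z * y) ^ 3 = 1}.ncard = Fintype.card F := by
  classical
  have h2 : (2 : F) ≠ 0 := two_ne
  have hy3 : y ^ 3 = 1 := by rw [← hy]; exact pow_orderOf_eq_one y
  have hy1 : y ≠ 1 := by
    rintro rfl
    simp at hy
  -- a Sylow 3-subgroup containing y
  have hpg : IsPGroup 3 (Subgroup.zpowers y) := by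
    apply IsPGroup.of_card (n := 1)
    rw [Nat.card_zpowers, hy, pow_one]
  obtain ⟨P, hP⟩ := hpg.exists_le_sylow
  have hyP : y ∈ (P : Subgroup PSL2) := hP (Subgroup.mem_zpowers y)
  obtain ⟨x, hx⟩ := exists_conj_upper 3 P
  obtain ⟨Y₀, hY₀⟩ := pr_surj y
  -- normalise the trace
  obtain ⟨Y, hY, htr⟩ : ∃ Y : SL2, pr F Y = y ∧ tr2 Y = 2 := by
    have := (cube_iff Y₀).1 (by rw [hY₀]; exact hy3)
    rcases this with h | h
    · exact ⟨Y₀, hY₀, h⟩
    · exact ⟨negOne * Y₀, by rw [map_mul, pr_negOne, one_mul, hY₀], by rw [tr2_negOne_mul, h]; ring⟩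
  have h10 : (x⁻¹ * Y * x) 1 0 = 0 := hx Y (by rw [hY]; exact Subgroup.le_normalizer hyP)
  have htr' : tr2 (x⁻¹ * Y * x) = 2 := by
    have := tr2_conj Y x⁻¹
    rw [inv_inv] at this
    rw [this, htr]
  have h00 : (x⁻¹ * Y * x) 0 0 = 1 := by
    have hd := det_eq (x⁻¹ * Y * x)
    rw [h10] at hd
    simp only [tr2] at htr'
    have : ((x⁻¹ * Y * x) 0 0 - 1) ^ 2 = 0 := by
      have e : (x⁻¹ * Y * x) 1 1 = 2 - (x⁻¹ * Y * x) 0 0 := by linear_combination htr'
      rw [e] at hd
      linear_combination -hd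
    exact sub_eq_zero.1 (pow_eq_zero_iff (by norm_num) |>.1 this)
  obtain ⟨s, hs⟩ := mem_Usub_iff.1 (mem_Usub.2 ⟨h10, h00⟩)
  have hs0 : s ≠ 0 := by
    rintro rfl
    rw [uu_zero] at hs
    apply hy1
    have : Y = 1 := by
      have : x * (x⁻¹ * Y * x) * x⁻¹ = Y := by group
      rw [← this, hs]
      group
    rw [← hY, this, map_one]
  rw [← count_uu s hs0]
  -- conjugation by `pr x`
  have hyx : (pr F x)⁻¹ * y * pr F x = pr F (uu s) := by
    rw [← hs, ← hY]
    simp
  let e : PSL2 ≃ PSL2 := (MulAut.conj (pr F x)⁻¹).toEquiv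
  have himg : e '' {z : PSL2 | orderOf z = 2 ∧ (z * y) ^ 3 = 1}
      = {z : PSL2 | orderOf z = 2 ∧ (z * pr F (uu s)) ^ 3 = 1} := by
    ext w
    constructor
    · rintro ⟨z, ⟨hz2, hz3⟩, rfl⟩
      refine ⟨?_, ?_⟩
      · show orderOf (MulAut.conj (pr F x)⁻¹ z) = 2
        have := orderOf_injective (MulAut.conj (pr F x)⁻¹).toMonoidHom
          (MulAut.conj (pr F x)⁻¹).injective z
        exact this.trans hz2
      · show (MulAut.conj (pr F x)⁻¹ z * pr F (uu s)) ^ 3 = 1
        rw [← hyx]
        have : MulAut.conj (pr F x)⁻¹ z * ((pr F x)⁻¹ * y * pr F x)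
            = MulAut.conj (pr F x)⁻¹ (z * y) := by
          simp [MulAut.conj_apply]
          group
        rw [this, ← map_pow, hz3, map_one]
    · rintro ⟨hw2, hw3⟩
      refine ⟨MulAut.conj (pr F x) w, ⟨?_, ?_⟩, ?_⟩
      · have := orderOf_injective (MulAut.conj (pr F x)).toMonoidHom (MulAut.conj (pr F x)).injective w
        exact this.trans hw2
      · have hy' : y = MulAut.conj (pr F x) (pr F (uu s)) := by
          rw [← hyx]
          simp [MulAut.conj_apply]
          group
        rw [hy', ← map_mul, ← map_pow, hw3, map_one]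
      · show MulAut.conj (pr F x)⁻¹ (MulAut.conj (pr F x) w) = w
        simp [MulAut.conj_apply]
        group
  rw [← himg, Set.ncard_image_of_injective _ e.injective]

end Cfsg.Agent.Lib.Helper41.Sol3
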